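import Cfsg.Agent.Lib.Core.PSolv
import Cfsg.Agent.Lib.Core.Coprime
import Cfsg.Agent.Lib.PGroup.Extraspecial
import Cfsg.Agent.Lib.Transfer.AbelianSylow

/-!
Elements of order three with one Jordan block of size three over `𝔽₃`: frames.
-/

set_option autoImplicit false

namespace Cfsg.Agent.Lib.Wr

open Subgroup Module

variable {S : Type*} [Group S] {E : Type*} [AddCommGroup E] [Module (ZMod 3) E]
  (ρ : Representation (ZMod 3) S E)

theorem add_three (x : E) : x + x + x = 0 := by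
  have : ((1 : ZMod 3) + 1 + 1) • x = 0 := by rw [show (1 : ZMod 3) + 1 + 1 = 0 from rfl, zero_smul]
  simpa only [add_smul, one_smul] using this

theorem rho_mul (g h : S) (v : E) : ρ (g * h) v = ρ g (ρ h v) := by rw [map_mul]; rfl

/-- The elements acting trivially on `E / M`. -/
def Mv (M : Submodule (ZMod 3) E) : Subgroup S where
  carrier := {g | ∀ v, ρ g v - v ∈ M}
  mul_mem' {g h} hg hh v := by
    simpa [rho_mul] using M.add_mem (hg (ρ h v)) (hh v)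
  one_mem' v := by simp
  inv_mem' {g} hg v := by simpa using M.neg_mem (hg (ρ g⁻¹ v))

/-- The elements acting trivially on `M`. -/
def Fx (M : Submodule (ZMod 3) E) : Subgroup S where
  carrier := {g | ∀ v ∈ M, ρ g v = v}
  mul_mem' {g h} hg hh v hv := by rw [rho_mul, hh v hv, hg v hv]
  one_mem' v _ := by simp
  inv_mem' {g} hg v hv := by rw [← hg v hv, ρ.inv_self_apply, hg v hv]

variable {ρ}

theorem Mv_mono {M M' : Submodule (ZMod 3) E} (h : M ≤ M') : Mv ρ M ≤ Mv ρ M' :=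
  fun _ hg v => h (hg v)

theorem eq_one_of_Mv_Fx (hf : Function.Injective ρ) {M : Submodule (ZMod 3) E} {L : Subgroup S}
    (hL : ¬ 3 ∣ Nat.card L) {g : S} (hg : g ∈ L) (h1 : g ∈ Mv ρ M) (h2 : g ∈ Fx ρ M) : g = 1 := by
  have h3 : g ^ 3 = 1 := hf (LinearMap.ext fun v => by
    have := h2 _ (h1 v)
    rw [map_sub, sub_eq_iff_eq_add] at this
    rw [pow_three, rho_mul, rho_mul, this, map_add, map_sub, this, map_one, End.one_apply]
    linear_combination (norm := abel1) add_three (ρ g v - v))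
  by_contra h
  exact hL (orderOf_eq_prime (hp := ⟨Nat.prime_three⟩) h3 h ▸ L.orderOf_dvd_natCard hg)

theorem card_dvd_of_le_Mv [Finite E] (hf : Function.Injective ρ) {M : Submodule (ZMod 3) E}
    {L : Subgroup S} (hL : ¬ 3 ∣ Nat.card L) (h : L ≤ Mv ρ M) :
    Nat.card L ∣ ∏ i : Fin (finrank (ZMod 3) M), (3 ^ finrank (ZMod 3) M - 3 ^ (i : ℕ)) := by
  have : Fact (Nat.Prime 3) := ⟨Nat.prime_three⟩
  have hM : ∀ g : L, ∀ v ∈ M, ρ g v ∈ M := fun g v hv => by simpa using M.add_mem (h g.2 v) hv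
  let φ : L →* End (ZMod 3) M :=
    { toFun := fun g => (ρ g).restrict (hM g)
      map_one' := LinearMap.ext fun v => Subtype.ext (by simp)
      map_mul' := fun g h => LinearMap.ext fun v => Subtype.ext (rho_mul ρ g h v) }
  have h1 := card_dvd_of_injective φ.toHomUnits ((injective_iff_map_eq_one _).2 fun g hg =>
    Subtype.ext (eq_one_of_Mv_Fx hf hL g.2 (h g.2) fun v hv =>
      congrArg Subtype.val (LinearMap.congr_fun (congrArg Units.val hg) ⟨v, hv⟩)))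
  rwa [← Nat.card_congr (Matrix.GeneralLinearGroup.toLin' (finBasis (ZMod 3) M)).toEquiv,
    Matrix.card_GL_field, ZMod.card] at h1

/-- An involution whose conjugates under `b` form a four-group. -/
structure Fr (b q : S) : Prop where
  sq : q * q = 1
  ne : q ≠ 1
  mul : q * (b * q * b⁻¹) = b * (b * q * b⁻¹) * b⁻¹

variable (ρ) in
/-- The weight spaces of the four-group. -/
def Wt (b q : S) (ε δ : ZMod 3) : Submodule (ZMod 3) E :=
  End.eigenspace (ρ q) ε ⊓ End.eigenspace (ρ (b * q * b⁻¹)) δ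

variable {b q : S} {ε δ : ZMod 3} {v : E}

theorem mem_Wt : v ∈ Wt ρ b q ε δ ↔ ρ q v = ε • v ∧ ρ (b * q * b⁻¹) v = δ • v := by
  simp [Wt]

theorem Fr.sq' (h : Fr b q) : b * q * b⁻¹ * (b * q * b⁻¹) = 1 := by
  rw [conj_mul, h.sq, mul_one, mul_inv_cancel]

theorem Fr.comm (h : Fr b q) : Commute q (b * q * b⁻¹) := by
  have h1 : q * (b * q * b⁻¹) * (q * (b * q * b⁻¹)) = 1 := by
    rw [h.mul, conj_mul, h.sq', mul_one, mul_inv_cancel]
  rw [mul_eq_one_iff_eq_inv, mul_inv_rev, inv_eq_of_mul_eq_one_right h.sq,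
    inv_eq_of_mul_eq_one_right h.sq'] at h1
  exact h1

theorem map_mem_Wt {y : S} (h1 : Commute y q) (h2 : Commute y (b * q * b⁻¹))
    (hv : v ∈ Wt ρ b q ε δ) : ρ y v ∈ Wt ρ b q ε δ := by
  rw [mem_Wt] at hv ⊢
  rw [← rho_mul, ← rho_mul, ← h1.eq, ← h2.eq, rho_mul, rho_mul ρ y, hv.1, hv.2, map_smul, map_smul]
  exact ⟨rfl, rfl⟩

theorem Fr.b_mem (h : Fr b q) (hb : b ^ 3 = 1) (hv : v ∈ Wt ρ b q ε δ) {η : ZMod 3}
    (hη : ε * δ = η := by decide) : ρ b v ∈ Wt ρ b q η ε := by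
  subst hη
  rw [mem_Wt] at hv ⊢
  have e : q * b = b * (q * (b * q * b⁻¹)) := by
    rw [h.mul]
    calc q * b = b ^ 3 * q * (b ^ 3)⁻¹ * b := by rw [hb]; simp
      _ = _ := by rw [pow_three']; group
  rw [← rho_mul, ← rho_mul, e, inv_mul_cancel_right, rho_mul, rho_mul, rho_mul ρ b, hv.1, hv.2,
    map_smul, hv.1, map_smul, map_smul, smul_smul, mul_comm]
  exact ⟨rfl, rfl⟩

theorem Fr.exists_dec (h : Fr b q) {N : Submodule (ZMod 3) E} (h1 : ∀ v ∈ N, ρ q v ∈ N)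
    (h2 : ∀ v ∈ N, ρ (b * q * b⁻¹) v ∈ N) (hv : v ∈ N) :
    ∃ x₀ ∈ N ⊓ Wt ρ b q 1 1, ∃ x₁ ∈ N ⊓ Wt ρ b q 1 (-1), ∃ x₂ ∈ N ⊓ Wt ρ b q (-1) 1,
      ∃ x₃ ∈ N ⊓ Wt ρ b q (-1) (-1), v = x₀ + x₁ + x₂ + x₃ := by
  have key : ∀ ε δ : ZMod 3, ε * ε = 1 → δ * δ = 1 →
      v + ε • ρ q v + δ • ρ (b * q * b⁻¹) (v + ε • ρ q v) ∈ N ⊓ Wt ρ b q ε δ := fun ε δ hε hδ => by
    have h3 : v + ε • ρ q v ∈ N := N.add_mem hv (N.smul_mem _ (h1 v hv))
    refine ⟨N.add_mem h3 (N.smul_mem _ (h2 _ h3)), mem_Wt.2 ⟨?_, ?_⟩⟩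
    · have : ρ q (v + ε • ρ q v) = ε • (v + ε • ρ q v) := by
        rw [map_add, map_smul, ← rho_mul, h.sq, smul_add, smul_smul, hε, add_comm]; simp
      rw [map_add, map_smul, ← rho_mul, h.comm.eq, rho_mul, this, map_smul, smul_add ε (v + _),
        smul_comm]
    · rw [map_add, map_smul, ← rho_mul, h.sq', smul_add _ (v + _), smul_smul, hδ, add_comm]; simp
  refine ⟨_, key 1 1 rfl rfl, _, key 1 (-1) rfl rfl, _, key (-1) 1 rfl rfl, _,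
    key (-1) (-1) rfl rfl, ?_⟩
  simp only [neg_smul, one_smul]
  linear_combination (norm := abel1) -add_three v

theorem wt_indep {x₀ x₁ x₂ x₃ : E} (h0 : x₀ ∈ Wt ρ b q 1 1) (h1 : x₁ ∈ Wt ρ b q 1 (-1))
    (h2 : x₂ ∈ Wt ρ b q (-1) 1) (h3 : x₃ ∈ Wt ρ b q (-1) (-1)) (h : x₀ + x₁ + x₂ + x₃ = 0) :
    x₀ = 0 ∧ x₁ = 0 ∧ x₂ = 0 ∧ x₃ = 0 := by
  rw [mem_Wt] at h0 h1 h2 h3
  have e1 := congrArg (ρ q) h
  have e2 := congrArg (ρ (b * q * b⁻¹)) h
  simp only [map_add, map_zero, h0, h1, h2, h3, neg_smul, one_smul] at e1 e2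
  have e3 := congrArg (ρ q) e2
  simp only [map_add, map_neg, map_zero, h0, h1, h2, h3, neg_smul, one_smul] at e3
  exact ⟨by linear_combination (norm := abel1) h + e1 + e2 + e3 - add_three x₀,
    by linear_combination (norm := abel1) h + e1 - e2 - e3 - add_three x₁,
    by linear_combination (norm := abel1) h - e1 + e2 - e3 - add_three x₂,
    by linear_combination (norm := abel1) h - e1 - e2 + e3 - add_three x₃⟩

variable (ρ) in
/-- A frame. -/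
structure Frm (b q : S) (e : E) : Prop extends Fr b q where
  b3 : b ^ 3 = 1
  ne0 : e ≠ 0
  mem : e ∈ Wt ρ b q 1 (-1)
  line : ∀ v ∈ Wt ρ b q 1 (-1), ∃ c : ZMod 3, v = c • e
  fix : ∀ u ∈ Wt ρ b q 1 1, ρ b u = u

theorem rho_b3 (hb : b ^ 3 = 1) (v : E) : ρ b (ρ b (ρ b v)) = v := by
  rw [← rho_mul, ← rho_mul, ← pow_three', hb, map_one, End.one_apply]

theorem Fr.exists_frm [Finite E] (hf : Function.Injective ρ) (h : Fr b q) (hb : b ^ 3 = 1)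
    (hr : finrank (ZMod 3) (LinearMap.range (ρ b - 1)) ≤ 2) : ∃ e, Frm ρ b q e := by
  have m1 : ∀ {v}, v ∈ Wt ρ b q 1 (-1) → ρ b v ∈ Wt ρ b q (-1) 1 := fun hv => h.b_mem hb hv
  have m2 : ∀ {v}, v ∈ Wt ρ b q (-1) 1 → ρ b v ∈ Wt ρ b q (-1) (-1) := fun hv => h.b_mem hb hv
  have m3 : ∀ {v}, v ∈ Wt ρ b q (-1) (-1) → ρ b v ∈ Wt ρ b q 1 (-1) := fun hv => h.b_mem hb hv
  obtain ⟨e, he, h0⟩ : ∃ e ∈ Wt ρ b q 1 (-1), e ≠ 0 := by
    by_contra! H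
    refine h.ne (hf (LinearMap.ext fun v => ?_))
    obtain ⟨x₀, h0, x₁, h1, x₂, h2, x₃, h3, rfl⟩ := h.exists_dec (ρ := ρ) (N := ⊤)
      (fun _ _ => trivial) (fun _ _ => trivial) (v := v) trivial
    rw [H _ h1.2, ← rho_b3 hb x₂, H _ (m3 (m2 h2.2)), ← rho_b3 hb x₃, H _ (m3 h3.2)]
    simpa using (mem_Wt.1 h0.2).1
  have h1 : LinearIndependent (ZMod 3) ![ρ b e - e, ρ b (ρ b e) - ρ b e] :=
    LinearIndependent.pair_iff.2 fun s t hst => by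
      obtain ⟨-, e1, -, e3⟩ := wt_indep (zero_mem _) (Submodule.smul_mem _ (-s) he)
        (Submodule.smul_mem _ (s - t) (m1 he)) (Submodule.smul_mem _ t (m2 (m1 he)))
        (by linear_combination (norm := module) hst)
      refine ⟨by simpa [h0] using e1, (smul_eq_zero.1 e3).resolve_right fun e4 => h0 ?_⟩
      rw [← rho_b3 hb e, e4, map_zero]
  have h2 : Submodule.span (ZMod 3) (Set.range ![ρ b e - e, ρ b (ρ b e) - ρ b e]) =
      LinearMap.range (ρ b - 1) := Submodule.eq_of_le_of_finrank_le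
    (Submodule.span_le.2 (Set.range_subset_iff.2 (Fin.forall_fin_two.2 ⟨⟨e, rfl⟩, ⟨_, rfl⟩⟩)))
    (by rwa [finrank_span_eq_card h1])
  have h3 : ∀ v, ∃ s t : ZMod 3, s • (ρ b e - e) + t • (ρ b (ρ b e) - ρ b e) = ρ b v - v :=
    fun v => by
      have : ρ b v - v ∈ _ := h2.ge ⟨v, rfl⟩
      rwa [Matrix.range_cons_cons_empty, Submodule.mem_span_pair] at this
  refine ⟨e, h, hb, h0, he, fun v hv => ?_, fun u hu => ?_⟩
  · obtain ⟨s, t, hst⟩ := h3 v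
    exact ⟨s, sub_eq_zero.1 (wt_indep (zero_mem _) (sub_mem hv (Submodule.smul_mem _ s he))
      (sub_mem (Submodule.smul_mem _ (s - t) (m1 he)) (m1 hv)) (Submodule.smul_mem _ t (m2 (m1 he)))
      (by linear_combination (norm := module) hst)).2.1⟩
  · obtain ⟨s, t, hst⟩ := h3 u
    exact (sub_eq_zero.1 (wt_indep (sub_mem hu (h.b_mem hb hu (by decide))) (Submodule.smul_mem _ (-s) he)
      (Submodule.smul_mem _ (s - t) (m1 he)) (Submodule.smul_mem _ t (m2 (m1 he)))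
      (by linear_combination (norm := module) hst)).1).symm

namespace Frm

variable {e : E} (h : Frm ρ b q e)
include h

theorem mem₂ : ρ b e ∈ Wt ρ b q (-1) 1 := h.b_mem h.b3 h.mem

theorem mem₃ : ρ b (ρ b e) ∈ Wt ρ b q (-1) (-1) := h.b_mem h.b3 h.mem₂

theorem line₃ (hv : v ∈ Wt ρ b q (-1) (-1)) : ∃ c : ZMod 3, v = c • ρ b (ρ b e) := by
  obtain ⟨c, hc⟩ := h.line _ (h.b_mem h.b3 hv (by decide))
  exact ⟨c, by rw [← rho_b3 h.b3 v, hc, map_smul, map_smul]⟩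

theorem line₂ (hv : v ∈ Wt ρ b q (-1) 1) : ∃ c : ZMod 3, v = c • ρ b e := by
  obtain ⟨c, hc⟩ := h.line₃ (h.b_mem h.b3 hv (by decide))
  exact ⟨c, by rw [← rho_b3 h.b3 v, hc, map_smul, map_smul, rho_b3 h.b3]⟩

theorem dec (v : E) : ∃ u ∈ Wt ρ b q 1 1, ∃ c₁ c₂ c₃ : ZMod 3,
    v = u + c₁ • e + c₂ • ρ b e + c₃ • ρ b (ρ b e) := by
  obtain ⟨x₀, h0, x₁, h1, x₂, h2, x₃, h3, rfl⟩ := h.exists_dec (ρ := ρ) (N := ⊤)
    (fun _ _ => trivial) (fun _ _ => trivial) (v := v) trivial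
  obtain ⟨c₁, rfl⟩ := h.line _ h1.2
  obtain ⟨c₂, rfl⟩ := h.line₂ h2.2
  obtain ⟨c₃, rfl⟩ := h.line₃ h3.2
  exact ⟨_, h0.2, _, _, _, rfl⟩

theorem mem_Mv {g : S} {M : Submodule (ZMod 3) E} (h0 : ∀ u ∈ Wt ρ b q 1 1, ρ g u - u ∈ M)
    (h1 : ρ g e - e ∈ M) (h2 : ρ g (ρ b e) - ρ b e ∈ M)
    (h3 : ρ g (ρ b (ρ b e)) - ρ b (ρ b e) ∈ M) : g ∈ Mv ρ M := fun v => by
  obtain ⟨u, hu, c₁, c₂, c₃, rfl⟩ := h.dec v
  convert add_mem (add_mem (add_mem (h0 u hu) (M.smul_mem c₁ h1)) (M.smul_mem c₂ h2))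
    (M.smul_mem c₃ h3) using 1
  simp only [map_add, map_smul]
  module

theorem b_mem_Mv {M : Submodule (ZMod 3) E} (h1 : e ∈ M) (h2 : ρ b e ∈ M) (h3 : ρ b (ρ b e) ∈ M) :
    b ∈ Mv ρ M :=
  h.mem_Mv (fun u hu => by simp [h.fix u hu]) (sub_mem h2 h1) (sub_mem h3 h2)
    (by rw [rho_b3 h.b3]; exact sub_mem h1 h3)

theorem exists_signs {y : S} (h1 : Commute y q) (h2 : Commute y (b * q * b⁻¹)) :
    ∃ c₁ c₂ c₃ : ZMod 3, (c₁ = 1 ∨ c₁ = -1) ∧ (c₂ = 1 ∨ c₂ = -1) ∧ (c₃ = 1 ∨ c₃ = -1) ∧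
      ρ y e = c₁ • e ∧ ρ y (ρ b e) = c₂ • ρ b e ∧ ρ y (ρ b (ρ b e)) = c₃ • ρ b (ρ b e) := by
  obtain ⟨c₁, e1⟩ := h.line _ (map_mem_Wt h1 h2 h.mem)
  obtain ⟨c₂, e2⟩ := h.line₂ (map_mem_Wt h1 h2 h.mem₂)
  obtain ⟨c₃, e3⟩ := h.line₃ (map_mem_Wt h1 h2 h.mem₃)
  have k : ∀ (c : ZMod 3) (g : S), ρ y (ρ g e) = c • ρ g e → c = 1 ∨ c = -1 := fun c g hc => by
    have : c ≠ 0 := by
      rintro rfl
      rw [zero_smul, ← rho_mul] at hc
      exact h.ne0 (by rw [← ρ.inv_self_apply (y * g) e, hc, map_zero])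
    clear hc; revert c; decide
  exact ⟨c₁, c₂, c₃, k _ 1 (by simpa using e1), k _ b e2, k _ (b * b) (by rwa [rho_mul]),
    e1, e2, e3⟩

end Frm

end Cfsg.Agent.Lib.Wr
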