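import Cfsg.Agent.Lib.Wr.Cubic1

/-!
Elements of order three with one Jordan block of size three over `𝔽₃`: the group `R` is a `2`-group.
-/

set_option autoImplicit false

namespace Cfsg.Agent.Lib.Wr

open Subgroup Module Cfsg.Agent.Lib.Core
open scoped commutatorElement

variable {S : Type*} [Group S] {E : Type*} [AddCommGroup E] [Module (ZMod 3) E]
  {ρ : Representation (ZMod 3) S E} {b q : S} {e : E} {R : Subgroup S}

theorem exists_mem_of_relIndex_le [Finite S] {P C R : Subgroup S} (hP : P ≤ R)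
    (h : C.relIndex R ≤ C.relIndex P) {r : S} (hr : r ∈ R) : ∃ p ∈ P, p⁻¹ * r ∈ C := by
  have e : ∀ K : Subgroup S, C.relIndex K = (MulAction.orbit K ((1 : S) : S ⧸ C)).ncard := fun K => by
    rw [← MulAction.index_stabilizer, relIndex]
    congr 1
    ext x
    exact (SetLike.ext_iff.1 (MulAction.stabilizer_quotient C) x.1).symm
  rw [e, e] at h
  obtain ⟨p, hp⟩ := (Set.eq_of_subset_of_ncard_le (show MulAction.orbit P _ ⊆ MulAction.orbit R _ from
    fun _ ⟨p, hp⟩ => ⟨⟨p, hP p.2⟩, hp⟩) h).ge ⟨⟨r, hr⟩, rfl⟩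
  exact ⟨p, p.2, by simpa using QuotientGroup.eq.1 (show ((p.1 * 1 : S) : S ⧸ C) = (r * 1 : S) from hp)⟩

theorem le_centralizer_of_modEq [Finite S] {r s a : ℕ} [Fact r.Prime] [hs : Fact s.Prime]
    {T Y : Subgroup S} (hY : IsPGroup r Y) (hn : Y ≤ normalizer (T : Set S))
    (hT : Nat.card T = s ^ a) (h : ∀ c < a, ¬ s ^ a ≡ s ^ c [MOD r]) :
    Y ≤ centralizer (T : Set S) := by
  have h1 := Transfer.card_modEq_card_inf_centralizer hY hn
  obtain ⟨c, hc, h2⟩ := (Nat.dvd_prime_pow hs.out).1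
    (hT ▸ card_dvd_of_le (inf_le_left : T ⊓ centralizer (Y : Set S) ≤ T))
  rw [hT, h2] at h1
  obtain rfl : c = a := by by_contra h3; exact h c (by omega) h1
  rw [le_centralizer_iff, ← inf_eq_left]
  exact eq_of_le_of_card_ge inf_le_left (by rw [hT, h2])

theorem Frm.commute_sq (f : Frm ρ b q e) (hf : Function.Injective ρ) {y : S} (h1 : Commute y q)
    (h2 : Commute y (b * q * b⁻¹)) : Commute (y ^ 2) b := hf (LinearMap.ext fun v => by
  obtain ⟨c₁, c₂, c₃, k₁, k₂, k₃, e₁, e₂, e₃⟩ := f.exists_signs h1 h2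
  have k : ∀ (c : ZMod 3) (x : E), (c = 1 ∨ c = -1) → ρ y x = c • x → ρ (y ^ 2) x = x := by
    rintro c x (rfl | rfl) hx <;> simp [sq, rho_mul, hx]
  obtain ⟨u, hu, a₁, a₂, a₃, rfl⟩ := f.dec v
  simp only [rho_mul, map_add, map_smul, k _ _ k₁ e₁, k _ _ k₂ e₂, k _ _ k₃ e₃, rho_b3 f.b3,
    f.fix u hu, f.fix _ (map_mem_Wt (h1.pow_left 2) (h2.pow_left 2) hu)])

variable (ρ b R) in
/-- The setting. -/
structure Ctx : Prop where
  inj : Function.Injective ρ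
  b3 : b ^ 3 = 1
  rk : finrank (ZMod 3) (LinearMap.range (ρ b - 1)) ≤ 2
  nd : ¬ 3 ∣ Nat.card R
  norm : b ∈ normalizer (R : Set S)
  gen : ∀ X : Subgroup S, (∀ r ∈ R, r * b * r⁻¹ ∈ X) → R ≤ X

variable (ρ R) in
/-- The commutator space. -/
def F0 : Submodule (ZMod 3) E := Submodule.span (ZMod 3) {w | ∃ r ∈ R, ∃ v, ρ r v - v = w}

variable (ρ R) in
/-- The fixed space. -/
noncomputable def F1 : Submodule (ZMod 3) E := Representation.invariants (ρ.comp R.subtype)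

theorem mem_F1 {v : E} : v ∈ F1 ρ R ↔ ∀ r ∈ R, ρ r v = v := by
  simp [F1]

theorem le_Mv_F0 : R ≤ Mv ρ (F0 ρ R) := fun r hr v => Submodule.subset_span ⟨r, hr, v, rfl⟩

theorem F0_le {N : Submodule (ZMod 3) E} (h : R ≤ Mv ρ N) : F0 ρ R ≤ N :=
  Submodule.span_le.2 fun _ ⟨_, hr, v, e⟩ => e ▸ h hr v

theorem map_mem_F0 {g : S} (hg : g ∈ normalizer (R : Set S)) {v : E} (hv : v ∈ F0 ρ R) :
    ρ g v ∈ F0 ρ R := by
  refine F0_le (N := (F0 ρ R).comap (ρ g)) (fun r hr v => ?_) hv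
  have := le_Mv_F0 (ρ := ρ) (conj_mem_of_mem_normalizer hg hr) (ρ g v)
  rwa [← rho_mul, inv_mul_cancel_right, rho_mul, ← map_sub] at this

theorem isCompl_F0 [Finite S] (h : ¬ 3 ∣ Nat.card R) : IsCompl (F0 ρ R) (F1 ρ R) := by
  have := Fintype.ofFinite R
  have h1 : (Fintype.card R : ZMod 3) ≠ 0 := by
    rwa [Ne, ZMod.natCast_eq_zero_iff, ← Nat.card_eq_fintype_card]
  have : Fact (Nat.Prime 3) := ⟨Nat.prime_three⟩
  have := invertibleOfNonzero h1
  have h2 := (Representation.isProj_averageMap (ρ.comp R.subtype)).isCompl.symm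
  have h3 : ∀ v, Representation.averageMap (ρ.comp R.subtype) v =
      (Fintype.card R : ZMod 3)⁻¹ • ∑ r : R, ρ r v := fun v => by
    simp [Representation.averageMap, GroupAlgebra.average]
  suffices LinearMap.ker (Representation.averageMap (ρ.comp R.subtype)) = F0 ρ R from this ▸ h2
  refine le_antisymm (fun v hv => ?_) (F0_le fun r hr v => ?_)
  swap
  · rw [LinearMap.mem_ker, map_sub, h3, h3, sub_eq_zero]
    congr 1
    exact Fintype.sum_equiv (Equiv.mulRight (⟨r, hr⟩ : R)) _ _ fun x => (rho_mul ρ x r v).symm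
  · rw [LinearMap.mem_ker, h3, smul_eq_zero, or_iff_right (inv_ne_zero h1)] at hv
    have := (F0 ρ R).smul_mem (-(Fintype.card R : ZMod 3)⁻¹)
      ((F0 ρ R).sum_mem fun (r : R) (_ : r ∈ Finset.univ) => le_Mv_F0 r.2 v)
    rwa [Finset.sum_sub_distrib, hv, Finset.sum_const, Finset.card_univ, ← Nat.cast_smul_eq_nsmul
      (ZMod 3), zero_sub, neg_smul_neg, inv_smul_smul₀ h1] at this

namespace Ctx

variable [Finite S] (h : Ctx ρ b R)
include h

omit [Finite S] in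
theorem conj_mem {r : S} (hr : r ∈ R) : b * r * b⁻¹ ∈ R := conj_mem_of_mem_normalizer h.norm hr

theorem eq_of_F0 {g g' : S} (hg : g ∈ R) (hg' : g' ∈ R) (e : ∀ v ∈ F0 ρ R, ρ g v = ρ g' v) :
    g = g' := h.inj (LinearMap.ext fun v => by
  obtain ⟨x, hx, y, hy, rfl⟩ := Submodule.mem_sup.1 ((isCompl_F0 (ρ := ρ) h.nd).sup_eq_top.ge
    (Submodule.mem_top (x := v)))
  rw [map_add, map_add, e x hx, mem_F1.1 hy g hg, mem_F1.1 hy g' hg'])

omit [Finite S] in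
theorem le_Fx {N : Submodule (ZMod 3) E} (hN : ∀ r ∈ R, ∀ v ∈ N, ρ r v ∈ N) (hb : b ∈ Fx ρ N) :
    R ≤ Fx ρ N := h.gen _ fun r hr v hv => by
  rw [rho_mul, rho_mul, hb _ (hN _ (inv_mem hr) v hv), ρ.self_inv_apply]

theorem irred (f : Frm ρ b q e) (hq : q ∈ R) {N : Submodule (ZMod 3) E} (hN : N ≤ F0 ρ R)
    (h1 : ∀ r ∈ R, ∀ v ∈ N, ρ r v ∈ N) (h2 : ∀ v ∈ N, ρ b v ∈ N) : N = ⊥ ∨ N = F0 ρ R := by
  by_cases he : e ∈ N
  · refine Or.inr (hN.antisymm (F0_le (h.gen _ fun r hr v => ?_)))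
    have := h1 r hr _ (f.b_mem_Mv he (h2 _ he) (h2 _ (h2 _ he)) (ρ r⁻¹ v))
    rwa [map_sub, ρ.self_inv_apply, ← rho_mul, ← rho_mul] at this
  refine Or.inl (eq_bot_iff.2 ((le_inf hN fun v hv => mem_F1.2 fun r hr =>
    h.le_Fx h1 (fun v hv => f.fix v ?_) hr v hv).trans (isCompl_F0 h.nd).inf_eq_bot.le))
  have k : ∀ c : ZMod 3, c • e ∈ N → c = 0 := fun c hc => by
    by_contra h0
    have : Fact (Nat.Prime 3) := ⟨Nat.prime_three⟩
    exact he ((N.smul_mem_iff h0).1 hc)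
  obtain ⟨x₀, h0, x₁, e1, x₂, e2, x₃, e3, rfl⟩ := f.exists_dec (h1 q hq) (h1 _ (h.conj_mem hq)) hv
  obtain ⟨c₁, rfl⟩ := f.line _ e1.2
  obtain ⟨c₂, rfl⟩ := f.line₂ e2.2
  obtain ⟨c₃, rfl⟩ := f.line₃ e3.2
  rw [k c₁ e1.1, k c₂ (by simpa [rho_b3 h.b3] using h2 _ (h2 _ e2.1)),
    k c₃ (by simpa [rho_b3 h.b3] using h2 _ e3.1)]
  simpa using h0.2

variable [Finite E]

theorem false_of_thirteen (hs : Group.IsSolvable R) (f : Frm ρ b q e) (hq : q ∈ R) {y : S}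
    (hy : y ∈ R) (ho : orderOf y = 13) (hb : b ∈ normalizer (zpowers y : Set S)) {b' : S}
    (hb' : finrank (ZMod 3) (LinearMap.range (ρ b' - 1)) ≤ 2) (hyb : y = b' * b⁻¹) :
    Commute y b := by
  have : Fact (Nat.Prime 13) := ⟨by norm_num⟩
  let M := Submodule.span (ZMod 3) (Set.range ![e, ρ b e, ρ b (ρ b e)]) ⊔ LinearMap.range (ρ b' - 1)
  have m : ∀ i, ![e, ρ b e, ρ b (ρ b e)] i ∈ M := fun i =>
    Submodule.mem_sup_left (Submodule.subset_span ⟨i, rfl⟩)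
  have hM : finrank (ZMod 3) M ≤ 5 := (Submodule.finrank_add_le_finrank_add_finrank _ _).trans
    (add_le_add ((finrank_range_le_card _).trans (by simp : _ ≤ 3)) hb')
  have h1 : b ∈ Mv ρ M := f.b_mem_Mv (m 0) (m 1) (m 2)
  have h2 : q ∈ Mv ρ M := f.mem_Mv (fun u hu => by simp [(mem_Wt.1 hu).1])
    (by simp [(mem_Wt.1 f.mem).1]) (by rw [(mem_Wt.1 f.mem₂).1]; exact sub_mem (M.smul_mem _ (m 1)) (m 1))
    (by rw [(mem_Wt.1 f.mem₃).1]; exact sub_mem (M.smul_mem _ (m 2)) (m 2))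
  have h3 : y ∈ Mv ρ M := hyb ▸ mul_mem (fun v => Submodule.mem_sup_right ⟨v, rfl⟩) (inv_mem h1)
  set L := R ⊓ Mv ρ M
  have h4 : Nat.card L ∣ 2 ^ 10 * 3 ^ 10 * 5 * 11 ^ 2 * 13 := by
    refine (card_dvd_of_le_Mv h.inj (fun h' => h.nd (h'.trans (card_dvd_of_le inf_le_left)))
      inf_le_right).trans ?_
    generalize finrank (ZMod 3) M = d at hM
    interval_cases d <;> decide +kernel
  have hY : IsPGroup 13 (zpowers y) := IsPGroup.of_card (n := 1) (by rw [Nat.card_zpowers, ho]; rfl)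
  have hyL : zpowers y ≤ L := zpowers_le.2 ⟨hy, h3⟩
  have h5 : zpowers y ≤ OpOf 13 L := by
    refine le_OpOf_of_le_fittingOf hY ((le_inf hyL (le_centralizer_iff.1
      (fittingOf_le_of_forall_OpOf fun s hs => le_centralizer_iff.1 ?_))).trans
      (inf_centralizer_fittingOf_le_of_isSolvable (isSolvable_of_le hs inf_le_left)))
    have : Fact s.Prime := ⟨hs⟩
    obtain ⟨a, ha⟩ := IsPGroup.iff_card.1 (OpOf_isPGroup (p := s) L)
    refine le_centralizer_of_modEq hY (hyL.trans (le_normalizer_OpOf le_normalizer)) ha fun c hc => ?_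
    have h6 : s ^ a ∣ Nat.card L := ha ▸ card_dvd_of_le (OpOf_le L)
    have h7 : s ≠ 3 := by
      rintro rfl
      exact h.nd ((dvd_pow_self 3 (by omega)).trans (h6.trans (card_dvd_of_le inf_le_left)))
    have h8 := h6.trans h4
    have h10 : s ∈ Nat.primeFactors (2 ^ 10 * 3 ^ 10 * 5 * 11 ^ 2 * 13) :=
      Nat.mem_primeFactors.2 ⟨hs, (dvd_pow_self s (by omega)).trans h8, by norm_num⟩
    rw [show Nat.primeFactors (2 ^ 10 * 3 ^ 10 * 5 * 11 ^ 2 * 13) = {2, 3, 5, 11, 13} by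
      decide +kernel] at h10
    have h11 : ∀ s ∈ ({2, 3, 5, 11, 13} : Finset ℕ), ¬ s ^ 11 ∣ 2 ^ 10 * 3 ^ 10 * 5 * 11 ^ 2 * 13 ∧
      (s ≠ 3 → ∀ a < 11, s ^ a ∣ 2 ^ 10 * 3 ^ 10 * 5 * 11 ^ 2 * 13 →
        ∀ c < a, ¬ s ^ a ≡ s ^ c [MOD 13]) := by decide +kernel
    exact (h11 s h10).2 h7 a (by
      by_contra h9; exact (h11 s h10).1 ((pow_dvd_pow s (by omega)).trans h8)) h8 c hc
  have h6 : zpowers y = OpOf 13 L := eq_of_le_of_card_ge h5 (by
    obtain ⟨a, ha⟩ := IsPGroup.iff_card.1 (OpOf_isPGroup (p := 13) L)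
    have := ((ha ▸ card_dvd_of_le (OpOf_le L)).trans h4 : 13 ^ a ∣ _)
    rw [ha, Nat.card_zpowers, ho]
    by_contra h7
    have h8 : 2 ≤ a := by by_contra; interval_cases a <;> simp at h7
    exact absurd ((pow_dvd_pow 13 h8).trans this) (by norm_num))
  obtain ⟨i, hi⟩ : q * y * q⁻¹ ∈ zpowers y := h6 ▸ conj_mem_of_mem_normalizer
    (le_normalizer_OpOf le_normalizer ⟨hq, h2⟩) (h6 ▸ mem_zpowers y)
  obtain ⟨j, hj⟩ := conj_mem_of_mem_normalizer (inv_mem hb) (mem_zpowers y)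
  simp only [inv_inv] at hi hj
  have c1 : ∀ x, Commute y x → Commute y (b * x * b⁻¹) := fun x hx => by
    simpa [hj, mul_assoc] using (hx.zpow_left j).conj b
  have c2 : ∀ k : ℤ, q * y ^ k * q⁻¹ = (y ^ k) ^ i := fun k => by
    rw [← conj_zpow, ← hi, zpow_comm]
  have c3 : b * q * b⁻¹ * y * (b * q * b⁻¹)⁻¹ = y ^ i := by
    rw [show b * q * b⁻¹ * y * (b * q * b⁻¹)⁻¹ = b * (q * (b⁻¹ * y * b) * q⁻¹) * b⁻¹ by group, ← hj,
      c2, ← conj_zpow, hj]
    group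
  have c4 : Commute y (b * (b * q * b⁻¹) * b⁻¹) := by
    rw [← f.mul]
    refine (mul_inv_eq_iff_eq_mul.1 ?_).symm
    calc _ = q * (b * q * b⁻¹ * y * (b * q * b⁻¹)⁻¹) * q⁻¹ := by group
      _ = q * q * y * (q * q)⁻¹ := by rw [c3, hi]; group
      _ = y := by rw [f.sq]; simp
  have c5 : Commute y q := by
    convert c1 _ c4 using 1
    calc q = b ^ 3 * q * (b ^ 3)⁻¹ := by rw [h.b3]; simp
      _ = _ := by rw [pow_three']; group
  have := (f.commute_sq h.inj c5 (c1 _ c5)).pow_left 7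
  rwa [← pow_mul, show 2 * 7 = 13 + 1 from rfl, pow_succ, ← ho, pow_orderOf_eq_one, one_mul] at this

theorem le_centralizer (hs : Group.IsSolvable R) (f : Frm ρ b q e) (hq : q ∈ R) {r : ℕ}
    [hr : Fact r.Prime] (h2 : r ≠ 2) {Y : Subgroup S} (hY : IsPGroup r Y) (hYR : Y ≤ R)
    (hb : b ∈ normalizer (Y : Set S)) : Y ≤ centralizer {b} := fun y hy => by
  have : Fact (Nat.Prime 3) := ⟨Nat.prime_three⟩
  have hr' : finrank (ZMod 3) (LinearMap.range (ρ (y * b * y⁻¹) - 1)) ≤ 2 := by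
    refine le_trans (Submodule.finrank_mono (t := (LinearMap.range (ρ b - 1)).map (ρ y)) ?_)
      ((Submodule.finrank_map_le _ _).trans h.rk)
    rintro _ ⟨v, rfl⟩
    exact ⟨_, ⟨ρ y⁻¹ v, rfl⟩, by simp [rho_mul]⟩
  let M := LinearMap.range (ρ b - 1) ⊔ LinearMap.range (ρ (y * b * y⁻¹) - 1)
  have hM : finrank (ZMod 3) M ≤ 4 := (Submodule.finrank_add_le_finrank_add_finrank _ _).trans
    (add_le_add h.rk hr')
  have h1 : b ∈ Mv ρ M := fun v => Submodule.mem_sup_left ⟨v, rfl⟩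
  have h3 : y * b * y⁻¹ * b⁻¹ ∈ Y ⊓ Mv ρ M :=
    ⟨by simpa [mul_assoc] using mul_mem hy (conj_mem_of_mem_normalizer hb (inv_mem hy)),
      (Mv ρ M).mul_mem (fun v => Submodule.mem_sup_right ⟨v, rfl⟩) (inv_mem h1)⟩
  have h4 : b ∈ normalizer ((Y ⊓ Mv ρ M : Subgroup S) : Set S) :=
    inf_normalizer_le_normalizer_inf ⟨hb, le_normalizer h1⟩
  have h5 : ¬ 3 ∣ Nat.card ↥(Y ⊓ Mv ρ M) := fun h' =>
    h.nd (h'.trans (card_dvd_of_le (inf_le_left.trans hYR)))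
  have h6 : Nat.card ↥(Y ⊓ Mv ρ M) ∣ 2 ^ 9 * 3 ^ 6 * 5 * 13 := by
    refine (card_dvd_of_le_Mv h.inj h5 inf_le_right).trans ?_
    generalize finrank (ZMod 3) M = d at hM
    interval_cases d <;> decide +kernel
  obtain ⟨a, ha⟩ := IsPGroup.iff_card.1 (hY.to_inf_left (K := Mv ρ M))
  set y₀ := y * b * y⁻¹ * b⁻¹ with hy₀
  suffices y₀ = 1 from mem_centralizer_singleton_iff.2 (mul_inv_eq_iff_eq_mul.1
    (mul_inv_eq_one.1 this))
  by_contra h7
  have h8 : a ≠ 0 := by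
    rintro rfl
    exact h7 ((eq_bot_of_card_eq _ ha).le h3)
  have h9 : r ∈ Nat.primeFactors (2 ^ 9 * 3 ^ 6 * 5 * 13) :=
    Nat.mem_primeFactors.2 ⟨hr.out, (dvd_pow_self r h8).trans (ha ▸ h6), by norm_num⟩
  rw [show Nat.primeFactors (2 ^ 9 * 3 ^ 6 * 5 * 13) = {2, 3, 5, 13} by decide +kernel] at h9
  have h10 : r = 5 ∨ r = 13 := by
    have : r ≠ 3 := by rintro rfl; exact h5 (ha ▸ dvd_pow_self 3 h8)
    simpa [h2, this] using h9
  obtain rfl : a = 1 := by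
    by_contra h11
    have := (pow_dvd_pow r (by omega : 2 ≤ a)).trans (ha ▸ h6)
    rcases h10 with rfl | rfl <;> norm_num at this
  have hc : Commute y₀ b := by
    rcases h10 with rfl | rfl
    · exact (le_centralizer_of_modEq (r := 3) (IsPGroup.of_card (n := 1) (by
        rw [Nat.card_zpowers, orderOf_eq_prime h.b3 (by
          rintro rfl; exact h7 (by simp [hy₀])), pow_one])) (zpowers_le.2 h4) ha
        (by decide) (mem_zpowers b) _ h3)
    · have h11 := PGroup.zpowers_eq_of_card_prime (ha.trans (pow_one _)) h3 h7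
      exact h.false_of_thirteen hs f hq (hYR h3.1) (by rw [← Nat.card_zpowers, h11, ha, pow_one])
        (h11 ▸ h4) hr' rfl
  have h11 : y₀ ^ 3 = 1 := by
    have := hc.mul_pow 3
    rwa [h.b3, mul_one, hy₀, inv_mul_cancel_right, conj_pow, h.b3, mul_one, mul_inv_cancel,
      eq_comm] at this
  exact h5 (orderOf_eq_prime h11 h7 ▸ Subgroup.orderOf_dvd_natCard _ h3)

theorem coprimeAct : CoprimeAct (zpowers b) R :=
  have : Fact (Nat.Prime 3) := ⟨Nat.prime_three⟩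
  coprimeAct_of_isPGroup_left (p := 3) (isPGroup_zpowers (k := 1) h.b3) h.nd (zpowers_le.2 h.norm)

theorem isPGroup (hs : Group.IsSolvable R) (f : Frm ρ b q e) (hq : q ∈ R) : IsPGroup 2 R := by
  obtain ⟨P, hP, hn⟩ := h.coprimeAct.exists_isSyl 2
  have h1 : ((centralizer {b}).relIndex R).Coprime (P.relIndex R) :=
    Nat.coprime_of_dvd fun r hr h1 h2 => by
      have : Fact r.Prime := ⟨hr⟩
      obtain ⟨Y, hY, hn⟩ := h.coprimeAct.exists_isSyl r
      exact hY.not_dvd (h1.trans (relIndex_dvd_of_le_left _ (h.le_centralizer hs f hq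
        (by rintro rfl; exact hP.not_dvd h2) hY.isPGroup hY.le (hn (mem_zpowers b)))))
  have h2 := relIndex_inf_mul_relIndex (centralizer {b}) P R
  rw [inf_comm (centralizer {b}), ← relIndex_inf_mul_relIndex, inf_of_le_left hP.le] at h2
  have h3 := Nat.le_of_dvd (Nat.pos_of_ne_zero index_ne_zero_of_finite)
    (h1.dvd_of_dvd_mul_right (Dvd.intro_left _ h2.symm))
  have h4 : R ≤ P ⊔ zpowers b := h.gen _ fun r hr => by
    obtain ⟨p, hp, h4⟩ := exists_mem_of_relIndex_le hP.le h3 hr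
    rw [show r * b * r⁻¹ = p * (p⁻¹ * r * b * (p⁻¹ * r)⁻¹) * p⁻¹ by group,
      mem_centralizer_singleton_iff.1 h4, mul_inv_cancel_right]
    exact mul_mem (mul_mem (mem_sup_left hp) (mem_sup_right (mem_zpowers b)))
      (inv_mem (mem_sup_left hp))
  refine hP.isPGroup.to_le fun r hr => ?_
  obtain ⟨p, hp, c, hc, rfl⟩ := (mem_sup_of_le_normalizer_left hn).1 (h4 hr)
  rwa [h.coprimeAct.inf_eq_bot.le ⟨hc, (mul_mem_cancel_left (hP.le hp)).1 hr⟩, mul_one]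

end Ctx

end Cfsg.Agent.Lib.Wr
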