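import Cfsg.Agent.Lib.Wr.Cubic2
import Cfsg.Agent.Lib.PGroup.Power

/-!
Elements of order three acting on a `2`-group with centre of order two.
-/

set_option autoImplicit false

namespace Cfsg.Agent.Lib.Wr

open Subgroup Cfsg.Agent.Lib.Core
open scoped commutatorElement

variable {S : Type*} [Group S] {b q z x g : S} {R : Subgroup S}

variable (R g) in
/-- The elements of `R` commuting with `g` modulo the centralizer of `R`. -/
def Tc : Subgroup S where
  carrier := {r | r ∈ R ∧ ⁅r, g⁆ ∈ centralizer (R : Set S)}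
  mul_mem' {r s} hr hs := ⟨mul_mem hr.1 hs.1, by
    rw [commutatorElement_mul_left_eq_conj_mul, hs.2 r hr.1, mul_inv_cancel_right]
    exact mul_mem hs.2 hr.2⟩
  one_mem' := ⟨one_mem _, by simp⟩
  inv_mem' {r} hr := ⟨inv_mem hr.1, by
    rw [show ⁅r⁻¹, g⁆ = r⁻¹ * ⁅r, g⁆⁻¹ * r by group, (inv_mem hr.2 :) _ (inv_mem hr.1),
      inv_mul_cancel_right]
    exact inv_mem hr.2⟩

variable (R) in
/-- The second centre of `R`. -/
def U2 : Subgroup S := R ⊓ ⨅ g ∈ R, Tc g R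

theorem mem_U2 : x ∈ U2 R ↔ x ∈ R ∧ ∀ g ∈ R, ⁅x, g⁆ ∈ centralizer (R : Set S) := by
  simp only [U2, mem_inf, mem_iInf]
  exact and_congr_right fun h => forall₂_congr fun _ _ => and_iff_right h

theorem conj_mem_U2 (hb : b ∈ normalizer (R : Set S)) (hx : x ∈ U2 R) : b * x * b⁻¹ ∈ U2 R := by
  rw [mem_U2] at hx ⊢
  refine ⟨conj_mem_of_mem_normalizer hb hx.1, fun g hg => ?_⟩
  rw [show ⁅b * x * b⁻¹, g⁆ = b * ⁅x, b⁻¹ * g * b⁻¹⁻¹⁆ * b⁻¹ by group]
  exact conj_mem_of_mem_normalizer (normalizer_le_normalizer_centralizer _ hb)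
    (hx.2 _ (conj_mem_of_mem_normalizer (inv_mem hb) hg))

theorem exists_mem_U2 [Finite S] (hR : IsPGroup 2 R) {M : Subgroup S} (hM : M ≤ R)
    (hn : R ≤ normalizer (M : Set S)) (h : ¬ M ≤ centralizer (R : Set S)) :
    ∃ x ∈ M, x ∈ U2 R ∧ x ∉ centralizer (R : Set S) := by
  have := normal_subgroupOf_of_le_normalizer hn
  have := normal_subgroupOf_of_le_normalizer
    (le_normalizer_centralizer (le_normalizer (H := R)))
  obtain ⟨x, h1, h2, -, h3⟩ := PGroup.exists_central_mod hR (N := (centralizer (R : Set S)).subgroupOf R)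
    (M := M.subgroupOf R) fun h' => h fun m hm => h' (x := ⟨m, hM hm⟩) hm
  exact ⟨x, h1, mem_U2.2 ⟨x.2, fun g hg => h3 ⟨g, hg⟩⟩, h2⟩

variable (b z R) in
/-- The centre of `R = [R, b]` is `{1, z}`. -/
structure Cz : Prop where
  b3 : b ^ 3 = 1
  norm : b ∈ normalizer (R : Set S)
  gen : ∀ X : Subgroup S, (∀ r ∈ R, r * b * r⁻¹ ∈ X) → R ≤ X
  zR : z ∈ R
  z1 : z ≠ 1
  zc : z ∈ centralizer (R : Set S)
  cen : ∀ c ∈ R, c ∈ centralizer (R : Set S) → c = 1 ∨ c = z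

namespace Cz

variable (h : Cz b z R)
include h

theorem zz : z * z = 1 :=
  (h.cen _ (mul_mem h.zR h.zR) (mul_mem h.zc h.zc)).resolve_right (by simpa using h.z1)

theorem zb : b * z * b⁻¹ = z := (h.cen _ (conj_mem_of_mem_normalizer h.norm h.zR)
  (conj_mem_of_mem_normalizer (normalizer_le_normalizer_centralizer _ h.norm) h.zc)).resolve_left
    (by simpa using h.z1)

theorem mem_iff (hx : x ∈ R) : x ∈ centralizer (R : Set S) ↔ x = 1 ∨ x = z :=
  ⟨h.cen x hx, by rintro (rfl | rfl); exacts [one_mem _, h.zc]⟩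

theorem z_mem : z ∈ U2 R := mem_U2.2 ⟨h.zR, fun g hg => by
  rw [commutatorElement_eq_one_iff_mul_comm.2 (h.zc g hg).symm]; exact one_mem _⟩

theorem conj_eq (hx : x ∈ U2 R) (hg : g ∈ R) (hc : ¬ Commute g x) : g * x * g⁻¹ = z * x := by
  rw [mem_U2] at hx
  rcases h.cen _ (inv_mem (commutator_le_of_le_normalizer_left le_normalizer
    (commutator_mem_commutator hx.1 hg))) (inv_mem (hx.2 g hg)) with e | e <;> rw [commutatorElement_inv] at e
  · exact absurd (commutatorElement_eq_one_iff_commute.1 e) hc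
  · rw [← e]; group

theorem conj_cases (hx : x ∈ U2 R) (hg : g ∈ R) : g * x * g⁻¹ = x ∨ g * x * g⁻¹ = z * x := by
  by_cases hc : Commute g x
  exacts [Or.inl (mul_inv_eq_iff_eq_mul.2 hc), Or.inr (h.conj_eq hx hg hc)]

theorem commute_mul (hx : x ∈ U2 R) {g' : S} (hg : g ∈ R) (hg' : g' ∈ R) (hc : ¬ Commute g x)
    (hc' : ¬ Commute g' x) : Commute (g * g') x := by
  refine mul_inv_eq_iff_eq_mul.1 ?_
  calc _ = g * (g' * x * g'⁻¹) * g⁻¹ := by group
    _ = z * (g * x * g⁻¹) := by rw [h.conj_eq hx hg' hc', ← mul_assoc, h.zc g hg]; group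
    _ = x := by rw [h.conj_eq hx hg hc, ← mul_assoc, h.zz, one_mul]

theorem mem_of_conj (hx : x ∈ U2 R) (hc : b * x * b⁻¹ = x ∨ b * x * b⁻¹ = z * x) :
    x ∈ centralizer (R : Set S) := by
  have h1 : b * x * b⁻¹ = x := hc.resolve_right fun e => h.z1 (by
    have : b ^ 3 * x * (b ^ 3)⁻¹ = b * (b * (b * x * b⁻¹) * b⁻¹) * b⁻¹ := by rw [pow_three']; group
    rw [e, ← conj_mul (a := z) (b := b), h.zb, e, ← mul_assoc z, h.zz, one_mul, e, h.b3] at this
    simpa using this.symm)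
  refine fun r hr => (h.gen (centralizer {x}) (fun g hg => ?_) hr x rfl).symm
  rw [mem_centralizer_singleton_iff]
  have h2 := mul_inv_eq_iff_eq_mul.1 h1
  have h3 := mul_inv_eq_iff_eq_mul.1 h.zb
  rcases h.conj_cases hx (inv_mem hg) with e | e
  · calc _ = g * b * (g⁻¹ * x * g⁻¹⁻¹) * g⁻¹ := by group
      _ = g * (g⁻¹ * x * g⁻¹⁻¹) * b * g⁻¹ := by rw [e, mul_assoc g, h2, ← mul_assoc]
      _ = _ := by group
  · calc _ = g * b * (g⁻¹ * x * g⁻¹⁻¹) * g⁻¹ := by group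
      _ = g * (g⁻¹ * x * g⁻¹⁻¹) * b * g⁻¹ := by
        rw [e, mul_assoc g, ← mul_assoc b, h3, mul_assoc z, h2, ← mul_assoc z, ← mul_assoc]
      _ = _ := by group

theorem norm_mem (hx : x ∈ U2 R) :
    x * (b * x * b⁻¹) * (b * (b * x * b⁻¹) * b⁻¹) ∈ centralizer (R : Set S) := by
  have h1 := conj_mem_U2 h.norm hx
  have h2 := conj_mem_U2 h.norm h1
  refine h.mem_of_conj (mul_mem (mul_mem hx h1) h2) ?_
  have e : b * (x * (b * x * b⁻¹) * (b * (b * x * b⁻¹) * b⁻¹)) * b⁻¹ =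
      (b * x * b⁻¹ * (b * (b * x * b⁻¹) * b⁻¹)) * x * (b * x * b⁻¹ * (b * (b * x * b⁻¹) * b⁻¹))⁻¹ *
        (b * x * b⁻¹) * (b * (b * x * b⁻¹) * b⁻¹) :=
    calc _ = b * x * b⁻¹ * (b * (b * x * b⁻¹) * b⁻¹) * (b ^ 3 * x * (b ^ 3)⁻¹) := by
          rw [pow_three']; group
      _ = _ := by rw [h.b3]; group
  rw [e]
  refine (h.conj_cases hx (mul_mem h1 h2).1).imp (fun e => by rw [e]) fun e => by
    rw [e]; simp only [mul_assoc]

theorem sq_mem (hx : x ∈ U2 R) : x * x ∈ centralizer (R : Set S) := fun g hg => by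
  refine mul_inv_eq_iff_eq_mul.1 ?_
  rw [← conj_mul]
  rcases h.conj_cases hx hg with e | e <;> rw [e]
  rw [mul_assoc, ← mul_assoc x, h.zc x hx.1, ← mul_assoc, ← mul_assoc, h.zz, one_mul]

theorem exists_mul {w w' g' : S} (hw : w ∈ U2 R) (hw' : w' ∈ U2 R) (hg : g ∈ R) (hg' : g' ∈ R)
    (h1 : ¬ Commute g w) (h2 : Commute g w') (h3 : Commute g' w) (h4 : ¬ Commute g' w')
    {X : Subgroup S} (hX : g ∈ X) (hX' : g' ∈ X) {r : S} (hr : r ∈ R) :
    ∃ t ∈ X, t * r ∈ R ∧ Commute (t * r) w ∧ Commute (t * r) w' := by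
  by_cases c : Commute r w <;> by_cases c' : Commute r w'
  · exact ⟨1, one_mem _, by simpa using ⟨hr, c, c'⟩⟩
  · exact ⟨g', hX', mul_mem hg' hr, h3.mul_left c, h.commute_mul hw' hg' hr h4 c'⟩
  · exact ⟨g, hX, mul_mem hg hr, h.commute_mul hw hg hr h1 c, h2.mul_left c'⟩
  · refine ⟨g * g', mul_mem hX hX', mul_mem (mul_mem hg hg') hr, ?_, ?_⟩
    · exact h.commute_mul hw (mul_mem hg hg') hr (fun e => h1 (by simpa using e.mul_left h3.inv_left)) c
    · exact h.commute_mul hw' (mul_mem hg hg') hr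
        (fun e => h4 (by simpa using h2.inv_left.mul_left e)) c'

theorem le_norm {w w' : S} (hw : w ∈ U2 R) (hw' : w' ∈ U2 R) :
    R ≤ normalizer ((R ⊓ centralizer {w} ⊓ centralizer {w'} : Subgroup S) : Set S) := by
  have k : ∀ w ∈ U2 R, ∀ g ∈ R, ∀ c ∈ R, c ∈ centralizer {w} → g * c * g⁻¹ ∈ centralizer {w} :=
    fun w hw g hg c hc h1 => by
      rw [mem_centralizer_singleton_iff] at h1 ⊢
      have : Commute c (g⁻¹ * w * g⁻¹⁻¹) := by
        rcases h.conj_cases hw (inv_mem hg) with e | e <;> rw [e]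
        exacts [h1, Commute.mul_right (h.zc c hc) h1]
      simpa [mul_assoc] using (this.conj g).eq
  exact le_normalizer_iff.2 fun g hg c hc => ⟨⟨R.mul_mem (mul_mem hg hc.1.1) (inv_mem hg),
    k w hw g hg c hc.1.1 hc.1.2⟩, k w' hw' g hg c hc.1.1 hc.2⟩

theorem not_mem (f : Fr b q) (hq : q ∈ R) : q ∉ centralizer (R : Set S) := fun e => by
  obtain rfl := (h.cen q hq e).resolve_left f.ne
  have := f.mul
  rw [h.zb, h.zb, h.zz] at this
  exact h.z1 this.symm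

theorem exists_fr [Finite S] (hR : IsPGroup 2 R) (f : Fr b q) (hq : q ∈ R) :
    ∃ w ∈ U2 R, Fr b w := by
  by_contra! H
  have hc : ∀ x ∈ R, x ∉ centralizer (R : Set S) → b * x * b⁻¹ ∉ centralizer (R : Set S) :=
    fun x _ h1 h2 => h1 ((mem_normalizer_iff.1 (normalizer_le_normalizer_centralizer _ h.norm) x).2 h2)
  have h1 : ∀ x ∈ U2 R, x ∉ centralizer (R : Set S) → x * x = z := fun x hx h1 => by
    refine (h.cen _ (mul_mem hx hx).1 (h.sq_mem hx)).resolve_left fun h2 => ?_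
    have h3 := conj_mem_U2 h.norm hx
    have h4 := conj_mem_U2 h.norm h3
    have h5 : b * (b * x * b⁻¹) * b⁻¹ * (b * (b * x * b⁻¹) * b⁻¹) = 1 := by simp [conj_mul, h2]
    rcases h.cen _ (mul_mem (mul_mem hx h3) h4).1 (h.norm_mem hx) with e | e
    · exact H x hx ⟨h2, fun e => h1 (e ▸ one_mem _), mul_right_cancel (e.trans h5.symm)⟩
    · refine H _ (mul_mem h.z_mem hx) ⟨?_, fun e => h1 ((mul_mem_cancel_left h.zc).1 (e ▸ one_mem _)), ?_⟩
      · rw [mul_assoc, ← mul_assoc x, h.zc x hx.1, mul_assoc, h2, mul_one, h.zz]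
      · rw [← conj_mul, h.zb, ← conj_mul, h.zb, mul_assoc, ← mul_assoc x, h.zc x hx.1, mul_assoc z x,
          ← mul_assoc z, h.zz, one_mul, ← e, mul_assoc _ (b * _ * _), h5, mul_one]
  obtain ⟨x, -, hx, hx'⟩ := exists_mem_U2 hR le_rfl le_normalizer fun e => h.not_mem f hq (e hq)
  have h3 := conj_mem_U2 h.norm hx
  have h4 := hc _ hx.1 hx'
  have h5 : ¬ Commute x (b * x * b⁻¹) := fun e => h.z1 (by
    rw [← h1 _ (mul_mem hx h3) fun e => hc _ h3.1 h4 ((mul_mem_cancel_left e).1 (h.norm_mem hx)),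
      ← sq, e.mul_pow, sq, sq, h1 _ hx hx', h1 _ h3 h4, h.zz])
  obtain ⟨y, hy, hy', h6⟩ := exists_mem_U2 hR (M := R ⊓ centralizer {x} ⊓ centralizer {b * x * b⁻¹})
    (inf_le_left.trans inf_le_left) (h.le_norm hx h3) fun e => by
      obtain ⟨t, ht, h6, h7, h8⟩ := h.exists_mul hx h3 h3.1 hx.1 (fun e => h5 e.symm) (Commute.refl _)
        (Commute.refl _) h5 h3 hx hq
      have := e ⟨⟨h6, mem_centralizer_singleton_iff.2 h7⟩, mem_centralizer_singleton_iff.2 h8⟩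
      refine H q ((mul_mem_cancel_left ht).1 ?_) f
      rcases h.cen _ h6 this with e | e <;> rw [e]
      exacts [one_mem _, h.z_mem]
  have h7 : Commute y x := mem_centralizer_singleton_iff.1 hy.1.2
  refine h.z1 ?_
  rw [← h1 _ (mul_mem hx hy') fun e => h5 ?_, ← sq, h7.symm.mul_pow, sq, sq, h1 _ hx hx',
    h1 _ hy' h6, h.zz]
  simpa using Commute.mul_left (e _ h3.1).symm
    (Commute.inv_left (mem_centralizer_singleton_iff.1 hy.2))

theorem exists_type {w : S} (f : Fr b w) (hw : w ∈ U2 R) :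
    ∃ g ∈ R, ¬ Commute g w ∧ Commute g (b * w * b⁻¹) ∧ Commute (b * (b * g * b⁻¹) * b⁻¹) w ∧
      ¬ Commute (b * (b * g * b⁻¹) * b⁻¹) (b * w * b⁻¹) ∧ ¬ Commute (b * g * b⁻¹) w ∧
      ¬ Commute (b * g * b⁻¹) (b * w * b⁻¹) := by
  have e : ∀ x, b * (b * (b * x * b⁻¹) * b⁻¹) * b⁻¹ = x := fun x =>
    calc _ = b ^ 3 * x * (b ^ 3)⁻¹ := by rw [pow_three']; group
      _ = x := by rw [h.b3]; simp
  obtain ⟨g, hg, h1, h2⟩ : ∃ g ∈ R, ¬ Commute g w ∧ Commute g (b * w * b⁻¹) := by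
    obtain ⟨g, hg, h1⟩ : ∃ g ∈ R, ¬ Commute g w := by
      by_contra! H
      exact h.not_mem f hw.1 H
    by_cases h2 : Commute g (b * w * b⁻¹)
    · exact ⟨g, hg, h1, h2⟩
    have h3 : Commute g (b * (b * w * b⁻¹) * b⁻¹) := by
      refine mul_inv_eq_iff_eq_mul.1 ?_
      rw [← f.mul, ← conj_mul, h.conj_eq hw hg h1, h.conj_eq (conj_mem_U2 h.norm hw) hg h2,
        mul_assoc, ← mul_assoc w, h.zc w hw.1, mul_assoc z w, ← mul_assoc z, h.zz, one_mul]
    refine ⟨_, conj_mem_of_mem_normalizer h.norm (conj_mem_of_mem_normalizer h.norm hg),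
      fun h4 => h2 ?_, ?_⟩
    · simpa only [e] using h4.conj b
    · simpa only [e] using (h3.conj b).conj b
  have h3 : ¬ Commute (b * g * b⁻¹) (b * w * b⁻¹) := fun h3 => h1 ((Commute.conj_iff b).1 h3)
  have h4 : Commute (b * (b * g * b⁻¹) * b⁻¹) w := by simpa only [e] using (h2.conj b).conj b
  refine ⟨g, hg, h1, h2, h4, fun h5 => h3 ((Commute.conj_iff b).1 (f.mul ▸ h4.mul_right h5)),
    fun h5 => h3 ?_, h3⟩
  have := h5.inv_right.mul_right (h2.conj b)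
  rwa [← f.mul, inv_mul_cancel_left] at this

theorem main [Finite S] {w : S} (f : Fr b w) (hw : w ∈ U2 R)
    (hC : ∀ c ∈ R, Commute c w → Commute c (b * w * b⁻¹) →
      c ∈ zpowers z ⊔ zpowers w ⊔ zpowers (b * w * b⁻¹)) :
    IsExtraspecial 2 R ∧ Nat.card R = 32 ∧
      ∃ A : Subgroup S, A ≤ R ∧ IsElementaryAbelian 2 A ∧ Nat.card A = 8 := by
  obtain ⟨g, hg, h1, h2, h3, h4, h5, h6⟩ := h.exists_type f hw
  have hw' := conj_mem_U2 h.norm hw
  have hg' := conj_mem_of_mem_normalizer h.norm hg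
  have hg'' := conj_mem_of_mem_normalizer h.norm hg'
  set k := b * (b * g * b⁻¹) * b⁻¹ with hk
  set A := zpowers z ⊔ zpowers w ⊔ zpowers (b * w * b⁻¹)
  have hA : ∀ {X : Subgroup S}, z ∈ X → w ∈ X → b * w * b⁻¹ ∈ X → A ≤ X := fun a b c =>
    sup_le (sup_le (zpowers_le.2 a) (zpowers_le.2 b)) (zpowers_le.2 c)
  have hAU : A ≤ U2 R := hA h.z_mem hw hw'
  have hz : ∀ x ∈ R, z ∈ centralizer {x} := fun x hx =>
    mem_centralizer_singleton_iff.2 (h.zc x hx).symm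
  have hAc : IsMulCommutative A := by
    have : IsMulCommutative ↥(zpowers z ⊔ zpowers w) := PGroup.isMulCommutative_sup_zpowers
      (le_centralizer_iff.1 (zpowers_le.2 (centralizer_le (zpowers_le.2 hw.1) h.zc)) (mem_zpowers w))
    refine PGroup.isMulCommutative_sup_zpowers fun x hx => mem_centralizer_singleton_iff.1
      (sup_le (zpowers_le.2 (hz _ hw'.1)) (zpowers_le.2 ?_) hx)
    exact mem_centralizer_singleton_iff.2 f.comm
  have hA2 : ∀ a ∈ A, a ^ 2 = 1 := fun a ha => by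
    have k : ∀ x : S, x * x = 1 → ∀ y ∈ zpowers x, y ^ 2 = 1 := by
      rintro x hx _ ⟨i, rfl⟩
      rw [← zpow_natCast, zpow_comm, zpow_natCast, sq, hx, one_zpow]
    have c := hAc.is_comm.comm
    obtain ⟨v, hv, y, hy, rfl⟩ := (mem_sup_of_le_normalizer_left (le_normalizer_of_le_centralizer
      fun y hy x hx => congrArg Subtype.val (c ⟨x, mem_sup_left hx⟩ ⟨y, mem_sup_right hy⟩))).1 ha
    obtain ⟨u, hu, x, hx, rfl⟩ := (mem_sup_of_le_normalizer_left (le_normalizer_of_le_centralizer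
      fun y hy x hx => congrArg Subtype.val (c ⟨x, mem_sup_left (mem_sup_left hx)⟩
        ⟨y, mem_sup_left (mem_sup_right hy)⟩))).1 hv
    rw [Commute.mul_pow (congrArg Subtype.val (c ⟨_, mem_sup_left hv⟩ ⟨y, mem_sup_right hy⟩)),
      Commute.mul_pow (congrArg Subtype.val (c ⟨_, mem_sup_left (mem_sup_left hu)⟩
        ⟨x, mem_sup_left (mem_sup_right hx)⟩)), k _ h.zz u hu, k _ f.sq x hx, k _ f.sq' y hy]
    simp
  have hR : ∀ {X : Subgroup S}, A ≤ X → g ∈ X → k ∈ X → R ≤ X := fun hX a b r hr => by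
    obtain ⟨t, ht, c⟩ := h.exists_mul hw hw' hg hg'' h1 h2 h3 h4 a b hr
    exact (mul_mem_cancel_left ht).1 (hX (hC _ c.1 c.2.1 c.2.2))
  have hc : ⁅g, k⁆ ∈ centralizer (R : Set S) := by
    have e1 : ⁅g, k⁆ ∈ A := by
      have k1 := le_normalizer_iff.1 (h.le_norm hw hw) g hg k
        ⟨⟨hg'', mem_centralizer_singleton_iff.2 h3⟩, mem_centralizer_singleton_iff.2 h3⟩
      have k2 := le_normalizer_iff.1 (h.le_norm hw' hw') k hg'' g⁻¹
        ⟨⟨R.inv_mem hg, mem_centralizer_singleton_iff.2 h2.inv_left⟩,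
          mem_centralizer_singleton_iff.2 h2.inv_left⟩
      refine hC _ (mul_mem k1.1.1 (inv_mem hg'')) (Commute.mul_left
        (mem_centralizer_singleton_iff.1 k1.2) h3.inv_left) ?_
      simpa only [commutatorElement_def, mul_assoc] using
        h2.mul_left (mem_centralizer_singleton_iff.1 k2.2)
    have e2 : (k * g)⁻¹ * (b * g * b⁻¹) ∈ A := hC _ (mul_mem (inv_mem (mul_mem hg'' hg)) hg')
      (h.commute_mul hw (inv_mem (mul_mem hg'' hg)) hg'
        (fun e => h1 (by simpa using h3.inv_left.mul_left (Commute.inv_left_iff.1 e))) h5)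
      (h.commute_mul hw' (inv_mem (mul_mem hg'' hg)) hg'
        (fun e => h4 (by simpa using (Commute.inv_left_iff.1 e).mul_left h2.inv_left)) h6)
    have e3 : b * ⁅g, k⁆ * b⁻¹ = (k * g) * ⁅(k * g)⁻¹ * (b * g * b⁻¹), g⁆ * (k * g)⁻¹ * ⁅g, k⁆⁻¹ :=
      calc _ = ⁅b * g * b⁻¹, b ^ 3 * g * (b ^ 3)⁻¹⁆ := by rw [hk, pow_three']; group
        _ = _ := by rw [h.b3]; group
    refine h.mem_of_conj (hAU e1) ?_
    rw [e3, inv_eq_of_mul_eq_one_right ((sq _).symm.trans (hA2 _ e1)),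
      (mem_U2.1 (hAU e2)).2 g hg _ (mul_mem hg'' hg), mul_inv_cancel_right]
    rcases h.cen _ (commutator_le_of_le_normalizer_left le_normalizer (commutator_mem_commutator
      (hAU e2).1 hg)) ((mem_U2.1 (hAU e2)).2 g hg) with e | e <;> rw [e] <;> simp
  have hgU : g ∈ U2 R := mem_U2.2 ⟨hg, fun r hr => commutatorElement_inv r g ▸ inv_mem (hR
    (X := Tc g R) (fun a ha => ⟨(hAU ha).1, (mem_U2.1 (hAU ha)).2 g hg⟩) ⟨hg, by simp⟩
    ⟨hg'', commutatorElement_inv g k ▸ inv_mem hc⟩ hr).2⟩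
  have hU := hR hAU hgU (conj_mem_U2 h.norm (conj_mem_U2 h.norm hgU))
  have ho : orderOf z = 2 := orderOf_eq_prime ((sq z).trans h.zz) h.z1
  have hZ : R ⊓ centralizer (R : Set S) = zpowers z := le_antisymm (fun c hc => by
    rcases h.cen c hc.1 hc.2 with rfl | rfl
    exacts [one_mem _, mem_zpowers _]) (zpowers_le.2 ⟨h.zR, h.zc⟩)
  have hES : PGroup.IsES 2 z R := ⟨h.zR, ho, fun x hx y hy => hZ.le
    ⟨commutator_le_of_le_normalizer_left le_normalizer (commutator_mem_commutator hx hy),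
      (mem_U2.1 (hU hx)).2 y hy⟩, fun x hx => hZ.le ⟨pow_mem hx 2, sq x ▸ h.sq_mem (hU hx)⟩, hZ⟩
  have st : ∀ {X : Subgroup S} {x y : S}, zpowers z ≤ X → X ≤ R → x ∈ R → X ≤ centralizer {y} →
      ¬ Commute x y → Nat.card ↥(X ⊔ zpowers x) = Nat.card X * 2 := fun {X x y} a b c d e =>
    PGroup.card_sup_zpowers (le_normalizer_iff_commutator_le_right.2 ((commutator_le.2 fun _ u _ v =>
      hES.comm _ u _ (b v)).trans a) c) (fun e' => e (mem_centralizer_singleton_iff.1 (d e')))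
      (a (hES.pow x c))
  have c1 := st le_rfl hES.zpowers_le hw.1 (zpowers_le.2 (hz g hg)) fun e => h1 e.symm
  have c2 := st (le_sup_left : _ ≤ zpowers z ⊔ zpowers w) (sup_le hES.zpowers_le (zpowers_le.2 hw.1))
    hw'.1 (sup_le (zpowers_le.2 (hz k hg'')) (zpowers_le.2 (mem_centralizer_singleton_iff.2 h3.symm)))
    fun e => h4 e.symm
  have hAR : A ≤ R := fun a ha => (hAU ha).1
  have hA' : A ≤ centralizer {b * w * b⁻¹} := hA (hz _ hw'.1)
    (mem_centralizer_singleton_iff.2 f.comm) (mem_centralizer_singleton_iff.2 rfl)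
  have c3 := st (le_sup_left.trans le_sup_left) hAR hg (hA (hz _ hw.1)
    (mem_centralizer_singleton_iff.2 rfl) (mem_centralizer_singleton_iff.2 f.comm.symm)) h1
  have c4 := st ((le_sup_left.trans le_sup_left).trans le_sup_left) (sup_le hAR (zpowers_le.2 hg))
    hg'' (sup_le hA' (zpowers_le.2 (mem_centralizer_singleton_iff.2 h2))) h4
  rw [c3, c2, c1, hES.card_zpowers, le_antisymm (sup_le (sup_le hAR (zpowers_le.2 hg))
    (zpowers_le.2 hg'')) (hR (le_sup_left.trans le_sup_left) (mem_sup_left (mem_sup_right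
      (mem_zpowers g))) (mem_sup_right (mem_zpowers k)))] at c4
  refine ⟨hES.isExtraspecial fun e => ?_, c4, A, hAR, ⟨hAc, hA2⟩, by rw [c2, c1, hES.card_zpowers]⟩
  rw [e, hES.card_zpowers] at c4
  omega

end Cz

end Cfsg.Agent.Lib.Wr
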