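import Cfsg.Agent.Lib.Wr.Cubic3

/-!
Elements of order three with one Jordan block of size three over `𝔽₃`: the structure of `R`.
-/

set_option autoImplicit false

namespace Cfsg.Agent.Lib.Wr.Ctx

open Subgroup Module Cfsg.Agent.Lib.Core
open scoped commutatorElement

variable {S : Type*} [Group S] {E : Type*} [AddCommGroup E] [Module (ZMod 3) E]
  {ρ : Representation (ZMod 3) S E} {b q : S} {e : E} {R : Subgroup S} [Finite S] [Finite E]
  (h : Ctx ρ b R)
include h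

omit [Finite S] [Finite E] in
theorem det_eq {r : S} (hr : r ∈ R) : LinearMap.det (ρ r) = 1 := by
  have h1 : ∀ x : ZMod 3, x ^ 3 = 1 → x = 1 := by decide
  have := h.gen (LinearMap.det.comp ρ).toHomUnits.ker (fun r _ => ?_) hr
  · exact congrArg Units.val this
  have : (LinearMap.det.comp ρ).toHomUnits b = 1 := Units.ext (h1 _ (by
    rw [← Units.val_pow_eq_pow_val, ← map_pow, h.b3, map_one, Units.val_one]))
  rw [MonoidHom.mem_ker, map_mul, map_mul, this, mul_one, ← map_mul, mul_inv_cancel, map_one]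

omit [Finite S] in
theorem eq_one_of_line {r : S} (hr : r ∈ R) {x : E} (hx : x ≠ 0)
    (h1 : r ∈ Mv ρ (Submodule.span (ZMod 3) {x})) : r = 1 := by
  have : Fact (Nat.Prime 3) := ⟨Nat.prime_three⟩
  let φ : Dual (ZMod 3) E := (LinearEquiv.toSpanNonzeroSingleton (ZMod 3) E x hx).symm.toLinearMap ∘ₗ
    LinearMap.codRestrict _ (ρ r - 1) h1
  have h2 : ρ r = LinearMap.transvection φ x := LinearMap.ext fun v => by
    rw [LinearMap.transvection.apply, ← sub_eq_iff_eq_add']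
    exact (congrArg Subtype.val ((LinearEquiv.toSpanNonzeroSingleton (ZMod 3) E x hx).apply_symm_apply
      ⟨_, h1 v⟩)).symm
  have h3 := h.det_eq hr
  rw [h2, LinearMap.transvection.det, add_eq_left] at h3
  refine eq_one_of_Mv_Fx h.inj h.nd hr h1 fun v hv => ?_
  obtain ⟨c, rfl⟩ := Submodule.mem_span_singleton.1 hv
  rw [map_smul, h2, LinearMap.transvection.apply, h3, zero_smul, add_zero]

omit [Finite S] in
theorem mem_four (f : Frm ρ b q e) (hq : q ∈ R) {r : S} (hr : r ∈ R) (h1 : Commute r q)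
    (h2 : Commute r (b * q * b⁻¹)) (h3 : r ∈ Fx ρ (Wt ρ b q 1 1)) :
    r ∈ zpowers q ⊔ zpowers (b * q * b⁻¹) := by
  have k : ∀ t ∈ zpowers q ⊔ zpowers (b * q * b⁻¹), ρ r (ρ t e) = e → ρ r (ρ t (ρ b e)) = ρ b e →
      r ∈ zpowers q ⊔ zpowers (b * q * b⁻¹) := fun t ht e1 e2 => by
    have hX : ∀ {X : Subgroup S}, r ∈ X → q ∈ X → b * q * b⁻¹ ∈ X → r * t ∈ X := fun a b c =>
      mul_mem a (sup_le (zpowers_le.2 b) (zpowers_le.2 c) ht)
    obtain ⟨c, hc⟩ := f.line₃ (map_mem_Wt (mem_centralizer_singleton_iff.1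
      (hX (mem_centralizer_singleton_iff.2 h1) (mem_centralizer_singleton_iff.2 rfl)
        (mem_centralizer_singleton_iff.2 f.comm.symm))) (mem_centralizer_singleton_iff.1
      (hX (mem_centralizer_singleton_iff.2 h2) (mem_centralizer_singleton_iff.2 f.comm)
        (mem_centralizer_singleton_iff.2 rfl))) f.mem₃)
    rw [← mul_mem_cancel_right ht, h.eq_one_of_line (hX hr hq (h.conj_mem hq))
      (x := ρ b (ρ b e)) (fun e3 => f.ne0 (by rw [← rho_b3 f.b3 e, e3, map_zero]))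
      (f.mem_Mv (fun u hu => by
        rw [hX h3 (fun u hu => by simpa using (mem_Wt.1 hu).1)
          (fun u hu => by simpa using (mem_Wt.1 hu).2) u hu, sub_self]
        exact zero_mem _) (by simp [rho_mul, e1]) (by simp [rho_mul, e2]) (by
        rw [hc]
        exact sub_mem (Submodule.smul_mem _ _ (Submodule.mem_span_singleton_self _))
          (Submodule.mem_span_singleton_self _)))]
    exact one_mem _
  have m1 := mem_Wt.1 f.mem
  have m2 := mem_Wt.1 f.mem₂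
  have t1 : q ∈ zpowers q ⊔ zpowers (b * q * b⁻¹) := mem_sup_left (mem_zpowers q)
  have t2 : b * q * b⁻¹ ∈ zpowers q ⊔ zpowers (b * q * b⁻¹) := mem_sup_right (mem_zpowers _)
  obtain ⟨c₁, c₂, -, rfl | rfl, rfl | rfl, -, e₁, e₂, -⟩ := f.exists_signs h1 h2
  · exact k 1 (one_mem _) (by simp [e₁]) (by simp [e₂])
  · exact k q t1 (by simp [m1, e₁]) (by simp [m2, e₂])
  · exact k _ t2 (by simp [m1.2, e₁, -map_mul]) (by simp [m2.2, e₂, -map_mul])
  · exact k _ (mul_mem t1 t2) (by rw [rho_mul ρ q]; simp [m1, e₁, -map_mul])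
      (by rw [rho_mul ρ q]; simp [m2, e₂, -map_mul])

omit [Finite S] [Finite E] in
theorem mem_F0 (f : Frm ρ b q e) (hq : q ∈ R) : e ∈ F0 ρ R := by
  convert le_Mv_F0 (ρ := ρ) (h.conj_mem hq) e using 1
  rw [(mem_Wt.1 f.mem).2]
  linear_combination (norm := module) add_three e

omit [Finite E] in
theorem eq_one_or_neg (f : Frm ρ b q e) (hq : q ∈ R) {c : S} (hc : c ∈ R)
    (h1 : c ∈ centralizer (R : Set S)) (h2 : Commute c b) : c = 1 ∨ ∀ v ∈ F0 ρ R, ρ c v = -v := by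
  obtain ⟨ε, -, -, hε, -, -, e₁, -⟩ := f.exists_signs (h1 q hq).symm (h1 _ (h.conj_mem hq)).symm
  have k : ∀ g, Commute c g → ∀ v ∈ End.eigenspace (ρ c) ε, ρ g v ∈ End.eigenspace (ρ c) ε :=
    fun g hg v hv => by
      rw [End.mem_eigenspace_iff] at hv ⊢
      rw [← rho_mul, hg.eq, rho_mul, hv, map_smul]
  have h3 := (h.irred f hq (N := F0 ρ R ⊓ End.eigenspace (ρ c) ε) inf_le_left
    (fun r hr v hv => ⟨map_mem_F0 (le_normalizer hr) hv.1, k r (h1 r hr).symm v hv.2⟩)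
    fun v hv => ⟨map_mem_F0 h.norm hv.1, k b h2 v hv.2⟩).resolve_left fun e =>
      f.ne0 (e.le ⟨h.mem_F0 f hq, End.mem_eigenspace_iff.2 e₁⟩)
  have h4 : ∀ v ∈ F0 ρ R, ρ c v = ε • v := fun v hv => End.mem_eigenspace_iff.1 (h3.ge hv).2
  rcases hε with rfl | rfl
  · exact Or.inl (h.eq_of_F0 hc (one_mem _) (by simpa using h4))
  · exact Or.inr (by simpa using h4)

omit h [Finite E] in
theorem four {d : S} (f : Fr b d) : IsElementaryAbelian 2 (zpowers d ⊔ zpowers (b * d * b⁻¹)) ∧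
    Nat.card ↥(zpowers d ⊔ zpowers (b * d * b⁻¹)) = 4 := by
  have h1 : b * d * b⁻¹ ∈ centralizer (zpowers d : Set S) :=
    le_centralizer_iff.1 (zpowers_le.2 (by rintro _ ⟨i, rfl⟩; exact (f.comm.symm.zpow_left i)))
      (mem_zpowers _)
  have k : ∀ x : S, x * x = 1 → ∀ y ∈ zpowers x, y = 1 ∨ y = x := fun x hx y hy => by
    by_cases h0 : x = 1
    · simpa [h0] using hy
    classical
    simpa [orderOf_eq_prime ((sq x).trans hx) h0, Finset.range_add_one, or_comm, eq_comm] using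
      mem_zpowers_iff_mem_range_orderOf.1 hy
  refine ⟨⟨PGroup.isMulCommutative_sup_zpowers h1, fun a ha => ?_⟩, ?_⟩
  · obtain ⟨x, hx, y, hy, rfl⟩ := (mem_sup_of_le_normalizer_left (le_normalizer_of_le_centralizer
      (zpowers_le.2 h1))).1 ha
    rcases k _ f.sq x hx with rfl | rfl <;> rcases k _ f.sq' y hy with rfl | rfl
    · simp
    · rw [one_mul, sq, f.sq']
    · rw [mul_one, sq, f.sq]
    · rw [f.comm.mul_pow, sq, sq, f.sq, f.sq', one_mul]
  · rw [PGroup.card_sup_zpowers (p := 2) (centralizer_le_normalizer _ h1) (fun e => ?_)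
      (by rw [sq, f.sq']; exact one_mem _), Nat.card_zpowers, orderOf_eq_prime ((sq d).trans f.sq) f.ne]
    have := f.mul
    rcases k _ f.sq _ e with e | e
    · exact f.ne (by simpa using e)
    · rw [e, e, f.sq] at this
      exact f.ne this.symm

theorem eq_four {d : S} (f : Fr b d) (hd : d ∈ R) (hc : d ∈ centralizer (R : Set S)) :
    R = zpowers d ⊔ zpowers (b * d * b⁻¹) := by
  obtain ⟨e, f⟩ := f.exists_frm h.inj h.b3 h.rk
  have hc' := conj_mem_of_mem_normalizer (normalizer_le_normalizer_centralizer _ h.norm) hc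
  exact le_antisymm (fun r hr => h.mem_four f hd hr (hc r hr) (hc' r hr)
    (h.le_Fx (fun r hr v hv => map_mem_Wt (hc r hr) (hc' r hr) hv) f.fix hr))
    (sup_le (zpowers_le.2 hd) (zpowers_le.2 (h.conj_mem hd)))

omit h [Finite E] in
theorem exists_fr_of_comm (hb : b ^ 3 = 1) {Z : Subgroup S} (hZ : IsMulCommutative Z)
    (h2 : IsPGroup 2 Z) (hn : zpowers b ≤ normalizer (Z : Set S))
    (h3 : ¬ Z ≤ centralizer (zpowers b : Set S)) : ∃ d ∈ ⁅Z, zpowers b⁆, Fr b d := by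
  have : Fact (Nat.Prime 3) := ⟨Nat.prime_three⟩
  have h1 := inf_centralizer_inf_commutator_eq_bot hZ hn (IsPGroup.coprime_card_of_ne 3 2
    (by decide) _ _ (isPGroup_zpowers (k := 1) hb) h2)
  have h0 := commutator_le_of_le_normalizer_left hn
  rw [← commutator_eq_bot_iff_le_centralizer] at h3
  obtain ⟨⟨d, hd⟩, ho⟩ := exists_prime_orderOf_dvd_card' 2 (dvd_card_of_isPGroup_of_ne_bot
    (h2.to_le h0) h3)
  rw [← orderOf_coe] at ho
  have h4 : b ∈ normalizer ((⁅Z, zpowers b⁆ : Subgroup S) : Set S) :=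
    normalizer_commutator_ge_right _ _ (mem_zpowers b)
  have h5 := conj_mem_of_mem_normalizer h4 hd
  have h6 := conj_mem_of_mem_normalizer h4 h5
  have h7 : d * d = 1 := by rw [← sq, ← ho, pow_orderOf_eq_one]
  refine ⟨d, hd, h7, by rintro rfl; simp at ho, mul_right_cancel
    ((h1.le ⟨?_, mul_mem (mul_mem hd h5) h6⟩).trans (by simp [conj_mul, h7]))⟩
  rintro _ ⟨i, rfl⟩
  refine Commute.zpow_left (mul_inv_eq_iff_eq_mul.1 ?_) i
  calc _ = b * d * b⁻¹ * (b * (b * d * b⁻¹) * b⁻¹) * (b ^ 3 * d * (b ^ 3)⁻¹) := by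
        rw [pow_three']; group
    _ = _ := by
      rw [hb, one_mul, inv_one, mul_one, Z.le_centralizer (h0 hd) _ (h0 (mul_mem h5 h6)), ← mul_assoc]

theorem commute_of_center (hR : IsPGroup 2 R)
    (H : ∀ d ∈ R, d ∈ centralizer (R : Set S) → ¬ Fr b d) :
    R ⊓ centralizer (R : Set S) ≤ centralizer (zpowers b : Set S) := by
  by_contra h1
  have hn := le_normalizer_inf h.coprimeAct.le_norm (le_normalizer_centralizer h.coprimeAct.le_norm)
  obtain ⟨d, hd, f⟩ := exists_fr_of_comm h.b3 (le_centralizer_iff_isMulCommutative.1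
    (inf_le_right.trans (centralizer_le inf_le_left))) hR.to_inf_left hn h1
  have := commutator_le_of_le_normalizer_left hn hd
  exact H d this.1 this.2 f

theorem structure_thm (hs : Group.IsSolvable R) (f : Fr b q) (hq : q ∈ R) :
    (IsElementaryAbelian 2 R ∧ Nat.card R = 4) ∨ (IsExtraspecial 2 R ∧ Nat.card R = 32 ∧
      ∃ A : Subgroup S, A ≤ R ∧ IsElementaryAbelian 2 A ∧ Nat.card A = 8) := by
  by_cases H : ∃ d ∈ R, d ∈ centralizer (R : Set S) ∧ Fr b d
  · obtain ⟨d, hd, hc, f⟩ := H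
    rw [h.eq_four f hd hc]
    exact Or.inl (four f)
  push Not at H
  obtain ⟨e, f⟩ := f.exists_frm h.inj h.b3 h.rk
  have hR := h.isPGroup hs f hq
  have h1 : ∀ c ∈ R, c ∈ centralizer (R : Set S) → c = 1 ∨ ∀ v ∈ F0 ρ R, ρ c v = -v :=
    fun c hc h1 => h.eq_one_or_neg f hq hc h1
      (h.commute_of_center hR H ⟨hc, h1⟩ b (mem_zpowers b)).symm
  have : Nontrivial R := ⟨⟨q, hq⟩, 1, fun e => f.ne (congrArg Subtype.val e)⟩
  obtain ⟨⟨⟨z, hz⟩, h2⟩, h3⟩ := @exists_ne _ hR.center_nontrivial 1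
  replace h2 : z ∈ centralizer (R : Set S) := fun r hr =>
    congrArg Subtype.val (mem_center_iff.1 h2 ⟨r, hr⟩)
  replace h3 : z ≠ 1 := fun e => h3 (Subtype.ext (Subtype.ext e))
  have h4 := (h1 z hz h2).resolve_left h3
  have hC : Cz b z R := ⟨h.b3, h.norm, h.gen, hz, h3, h2, fun c hc h5 => (h1 c hc h5).imp_right
    fun h6 => h.eq_of_F0 hc hz fun v hv => (h6 v hv).trans (h4 v hv).symm⟩
  obtain ⟨w, hw, f⟩ := hC.exists_fr hR f.toFr hq
  refine Or.inr (hC.main f hw fun c hc h5 h6 => ?_)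
  obtain ⟨k, hk, h7, h8⟩ : ∃ k ∈ R, Commute k w ∧ ¬ Commute k (b * w * b⁻¹) := by
    obtain ⟨g, hg, -, -, h7, h8, -⟩ := hC.exists_type f hw
    exact ⟨_, h.conj_mem (h.conj_mem hg), h7, h8⟩
  obtain ⟨e, f⟩ := f.exists_frm h.inj h.b3 h.rk
  have hw' := conj_mem_U2 h.norm hw
  have h9 := le_normalizer_iff.1 (hC.le_norm hw hw') k hk c
    ⟨⟨hc, mem_centralizer_singleton_iff.2 h5⟩, mem_centralizer_singleton_iff.2 h6⟩
  obtain ⟨ε, -, -, hε, -, -, e₁, -⟩ := f.exists_signs (mem_centralizer_singleton_iff.1 h9.1.2)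
    (mem_centralizer_singleton_iff.1 h9.2)
  have h10 : ∀ u ∈ Wt ρ b w 1 1, u ∈ F0 ρ R → ρ c u = ε • u := fun u hu hu' => by
    rw [mem_Wt, one_smul] at hu
    obtain ⟨a, ha⟩ := f.line (ρ k u) (mem_Wt.2 ⟨by rw [← rho_mul, ← h7.eq, rho_mul, hu.1, one_smul], by
      rw [← rho_mul, show b * w * b⁻¹ * k = k * (k⁻¹ * (b * w * b⁻¹) * k⁻¹⁻¹) by group,
        hC.conj_eq hw' (inv_mem hk) (by simpa using h8), rho_mul, rho_mul, hu.2, h4 u hu']
      simp⟩)
    rw [← ρ.inv_self_apply k (ρ c u), ← rho_mul ρ k, ← inv_mul_cancel_right (k * c) k, rho_mul, ha,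
      map_smul, e₁, smul_comm, ← ha, map_smul, ρ.inv_self_apply]
  have h11 : ∀ c ∈ R, (∀ u ∈ Wt ρ b w 1 1, u ∈ F0 ρ R → ρ c u = u) → c ∈ Fx ρ (Wt ρ b w 1 1) :=
    fun c hc h11 u hu => by
      obtain ⟨x, hx, y, hy, rfl⟩ := Submodule.mem_sup.1 ((isCompl_F0 (ρ := ρ) h.nd).sup_eq_top.ge
        (Submodule.mem_top (x := u)))
      rw [mem_F1] at hy
      rw [map_add, hy c hc, h11 x ((Submodule.add_mem_iff_left _ (mem_Wt.2
        ⟨by rw [hy _ hw.1, one_smul], by rw [hy _ hw'.1, one_smul]⟩)).1 hu) hx]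
  rw [sup_assoc]
  rcases hε with rfl | rfl
  · exact mem_sup_right (h.mem_four f hw.1 hc h5 h6 (h11 c hc (by simpa using h10)))
  · exact (mul_mem_cancel_left (mem_sup_left (mem_zpowers z))).1 (mem_sup_right (h.mem_four f hw.1
      (mul_mem hz hc) (Commute.mul_left (h2 w hw.1).symm h5) (Commute.mul_left (h2 _ hw'.1).symm h6)
      (h11 _ (mul_mem hz hc) fun u hu hu' => by rw [rho_mul, h10 u hu hu']; simp [h4 u hu'])))

theorem eq_one_of_fix (f : Fr b q) (hq : q ∈ R) {r : S} (hr : r ∈ R ⊔ zpowers b)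
    (h1 : r ∈ Fx ρ (F0 ρ R)) : r = 1 := by
  have : Fact (Nat.Prime 3) := ⟨Nat.prime_three⟩
  have h2 : r ∈ centralizer (R : Set S) := fun y hy => (mul_inv_eq_iff_eq_mul.1 (h.eq_of_F0
    (conj_mem_of_mem_normalizer (sup_le le_normalizer h.coprimeAct.le_norm hr) hy) hy fun v hv => by
      rw [rho_mul, rho_mul, inv_mem h1 v hv, h1 _ (map_mem_F0 (le_normalizer hy) hv)])).symm
  have h3 : b ∉ centralizer (R : Set S) := fun e => f.ne (by
    have := f.mul
    rwa [← e q hq, mul_inv_cancel_right, ← e q hq, mul_inv_cancel_right, mul_eq_left] at this)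
  obtain ⟨x, hx, c, hc, rfl⟩ := (mem_sup_of_le_normalizer_left h.coprimeAct.le_norm).1 hr
  have h4 : Commute x c := mul_left_cancel (a := x) ((h2 x hx).trans (mul_assoc _ _ _))
  have h5 := pow_mem h2 (Nat.card R)
  rw [h4.mul_pow, orderOf_dvd_iff_pow_eq_one.1 (R.orderOf_dvd_natCard hx), one_mul] at h5
  have h6 : c ^ Nat.card R = 1 := by
    by_contra h6
    exact h3 (zpowers_le.2 h5 ((PGroup.zpowers_eq_of_card_prime (p := 3) (by
      rw [Nat.card_zpowers, orderOf_eq_prime h.b3 fun e => h3 (e ▸ one_mem _)])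
        (pow_mem hc _) h6).ge (mem_zpowers b)))
  obtain rfl := orderOf_eq_one_iff.1 (Nat.eq_one_of_dvd_coprimes h.coprimeAct.coprime
    (Subgroup.orderOf_dvd_natCard _ hc) (orderOf_dvd_of_pow_eq_one h6))
  exact h.eq_of_F0 (mul_mem hx (one_mem _)) (one_mem _) fun v hv => by simpa using h1 v hv

end Cfsg.Agent.Lib.Wr.Ctx
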