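import Mathlib

/-!
A concrete model of the wreath product `D₈ ≀ C₂` and its automorphisms.
-/

set_option autoImplicit false
set_option maxRecDepth 100000
set_option synthInstance.maxSize 1000

namespace Cfsg.Agent.Lib.Wr

open DihedralGroup

/-- The wreath product `D₈ ≀ C₂`. -/
@[ext] structure W where
  x : DihedralGroup 4
  y : DihedralGroup 4
  s : Bool

namespace W

instance instDecidableEqW : DecidableEq W := fun u v =>
  decidable_of_iff (u.s = v.s ∧ u.x = v.x ∧ u.y = v.y) (by rw [W.ext_iff]; tauto)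

/-- The underlying triples. -/
def equivProd : DihedralGroup 4 × DihedralGroup 4 × Bool ≃ W :=
  ⟨fun p => ⟨p.1, p.2.1, p.2.2⟩, fun w => (w.x, w.y, w.s), fun _ => rfl, fun _ => rfl⟩

instance instFintypeW : Fintype W := Fintype.ofEquiv _ equivProd

instance instMulW : Mul W :=
  ⟨fun u v => ⟨u.x * cond u.s v.y v.x, u.y * cond u.s v.x v.y, xor u.s v.s⟩⟩

instance instOneW : One W := ⟨⟨1, 1, false⟩⟩

instance instInvW : Inv W := ⟨fun u => ⟨(cond u.s u.y u.x)⁻¹, (cond u.s u.x u.y)⁻¹, u.s⟩⟩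

theorem mul_def (u v : W) :
    u * v = ⟨u.x * cond u.s v.y v.x, u.y * cond u.s v.x v.y, xor u.s v.s⟩ := rfl

theorem inv_def (u : W) : u⁻¹ = ⟨(cond u.s u.y u.x)⁻¹, (cond u.s u.x u.y)⁻¹, u.s⟩ := rfl

theorem one_def : (1 : W) = ⟨1, 1, false⟩ := rfl

instance instGroupW : Group W :=
  Group.ofLeftAxioms
    (by rintro ⟨_, _, _ | _⟩ ⟨_, _, _ | _⟩ ⟨_, _, _⟩ <;> simp [mul_def, mul_assoc])
    (by rintro ⟨_, _, _⟩; simp [mul_def, one_def])
    (by rintro ⟨_, _, _ | _⟩ <;> simp [mul_def, inv_def, one_def])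

/-- Generators and central elements. -/
def a : W := ⟨sr 0, 1, false⟩
/-- Generators and central elements. -/
def b : W := ⟨sr 1, 1, false⟩
/-- Generators and central elements. -/
def a' : W := ⟨1, sr 0, false⟩
/-- Generators and central elements. -/
def b' : W := ⟨1, sr 1, false⟩
/-- Generators and central elements. -/
def z : W := ⟨r 2, 1, false⟩
/-- Generators and central elements. -/
def c : W := ⟨r 2, r 2, false⟩
/-- Generators and central elements. -/
def t : W := ⟨1, 1, true⟩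

/-- The centre of the base group. -/
abbrev Zq (w : W) : Prop := w = 1 ∨ w = c ∨ w = z ∨ w = z * c

/-- The centre of the base group. -/
def Z2 : Subgroup W where
  carrier := {w | Zq w}
  mul_mem' := fun {u v} hu hv => (by decide +kernel : ∀ u, Zq u → ∀ v, Zq v → Zq (u * v)) u hu v hv
  one_mem' := Or.inl rfl
  inv_mem' := fun {u} hu => (by decide +kernel : ∀ u, Zq u → Zq u⁻¹) u hu

instance instNormalZ2 : Z2.Normal :=
  ⟨(by decide +kernel : ∀ u, Zq u → ∀ v, Zq (v * u * v⁻¹))⟩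

/-- The base group. -/
def D : Subgroup W where
  carrier := {w | w.s = false}
  mul_mem' := fun {u v} (hu : u.s = false) (hv : v.s = false) => by simp [mul_def, hu, hv]
  one_mem' := rfl
  inv_mem' := fun hu => hu

/-- The cosets of `a` and `a'`. -/
abbrev A (w : W) : Prop := Zq (w⁻¹ * a) ∨ Zq (w⁻¹ * a')

/-- The cosets of `b` and `b'`. -/
abbrev B (w : W) : Prop := Zq (w⁻¹ * b) ∨ Zq (w⁻¹ * b')

theorem card_W : Nat.card W = 128 := by rw [Nat.card_eq_fintype_card]; decide +kernel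

theorem card_Z2 : Nat.card Z2 = 4 := by
  rw [show Nat.card Z2 = Nat.card {w // Zq w} from rfl, Nat.card_eq_fintype_card]; decide +kernel

theorem card_D : Nat.card D = 64 := by
  rw [show Nat.card D = Nat.card {w : W // w.s = false} from rfl, Nat.card_eq_fintype_card]
  decide +kernel

theorem central_iff : ∀ w : W, (∀ g, g * w = w * g) ↔ w = 1 ∨ w = c := by decide +kernel

theorem zq_iff : ∀ w : W, Zq w ↔ ∀ g, w * g * w⁻¹ * g⁻¹ = 1 ∨ w * g * w⁻¹ * g⁻¹ = c := by
  decide +kernel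

theorem s_iff : ∀ ζ, Zq ζ → ζ ≠ 1 → ζ ≠ c → ∀ w : W, w * ζ = ζ * w ↔ w.s = false := by
  decide +kernel

theorem ab_iff : ∀ w : W, (A w ∨ B w) ↔
    w.s = false ∧ w * w = 1 ∧ ¬ Zq w ∧ ∀ d : W, d.s = false → w * d * w⁻¹ * d⁻¹ ≠ c := by
  decide +kernel

theorem zq_of_central : ∀ e : W, e.s = false → (∀ d : W, d.s = false → e * d * e⁻¹ = d) → Zq e := by
  decide +kernel

theorem zq_sq : ∀ e : W, e.s = false → Zq (e * e) := by decide +kernel

variable (α : MulAut W)

theorem aut_c : α c = c := by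
  refine ((central_iff _).1 fun g => ?_).resolve_left (α.map_ne_one_iff.2 (by decide))
  obtain ⟨g, rfl⟩ := α.surjective g
  rw [← map_mul, ← map_mul, (central_iff c).2 (Or.inr rfl)]

theorem aut_zq {w : W} (h : Zq w) : Zq (α w) := by
  refine (zq_iff _).2 fun g => ?_
  obtain ⟨g, rfl⟩ := α.surjective g
  simp only [← map_inv, ← map_mul]
  exact ((zq_iff w).1 h g).imp (fun e => by rw [e, map_one]) fun e => by rw [e, aut_c]

theorem aut_s (w : W) : (α w).s = w.s := by
  have h1 := s_iff _ (aut_zq α (w := z) (by decide)) (α.map_ne_one_iff.2 (by decide))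
    (fun h => absurd (α.injective (h.trans (aut_c α).symm)) (by decide)) (α w)
  rw [← map_mul, ← map_mul, α.injective.eq_iff, s_iff z (by decide) (by decide) (by decide)] at h1
  revert h1
  cases w.s <;> cases (α w).s <;> simp

theorem aut_ab {w : W} (h : A w ∨ B w) : A (α w) ∨ B (α w) := by
  obtain ⟨h1, h2, h3, h4⟩ := (ab_iff w).1 h
  refine (ab_iff _).2 ⟨(aut_s α w).trans h1, by rw [← map_mul, h2, map_one],
    fun h => h3 (by simpa using aut_zq α⁻¹ h), fun d hd e => ?_⟩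
  obtain ⟨d, rfl⟩ := α.surjective d
  simp only [← map_inv, ← map_mul] at e
  exact h4 d ((aut_s α d).symm.trans hd) (α.injective (e.trans (aut_c α).symm))

theorem aut_ne : α a * α b ≠ α b * α a := by
  rw [← map_mul, ← map_mul, α.injective.ne_iff]; decide

/-- `α` is trivial on the base group modulo its centre. -/
def Triv : Prop := ∀ d : W, d.s = false → Zq ((α d)⁻¹ * d)

variable {α}

theorem triv_of (h : Zq ((α a)⁻¹ * a)) : Triv α := by
  have h1 : Zq ((α b)⁻¹ * b) := (by decide +kernel : ∀ u, Zq (u⁻¹ * a) → ∀ v, (A v ∨ B v) →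
    u * v ≠ v * u → Zq (v⁻¹ * b)) _ h _ (aut_ab α (by decide)) (aut_ne α)
  have h2 : ∀ u, Zq (u⁻¹ * a) → ∀ g : W, g.s = true → Zq ((g * u * g⁻¹)⁻¹ * a') := by
    decide +kernel
  have h3 : ∀ u, Zq (u⁻¹ * b) → ∀ g : W, g.s = true → Zq ((g * u * g⁻¹)⁻¹ * b') := by
    decide +kernel
  have h4 := h2 _ h _ (aut_s α t)
  have h5 := h3 _ h1 _ (aut_s α t)
  rw [← map_inv, ← map_mul, ← map_mul] at h4 h5
  let L := ((QuotientGroup.mk' Z2).comp α.toMonoidHom).eqLocus (QuotientGroup.mk' Z2)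
  have hL : ∀ d, d ∈ L ↔ Zq ((α d)⁻¹ * d) := fun d => QuotientGroup.eq
  intro d hd
  obtain ⟨i, j, e, f, rfl⟩ := (by decide +kernel : ∀ d : W, d.s = false → ∃ i j : Fin 4,
    ∃ e f : Fin 2, d = (a * b) ^ i.1 * a ^ e.1 * (a' * b') ^ j.1 * a' ^ f.1) d hd
  have ha := (hL a).2 h
  have ha' := (hL a').2 h4
  exact (hL _).1 (mul_mem (mul_mem (mul_mem (pow_mem (mul_mem ha ((hL b).2 h1)) _) (pow_mem ha _))
    (pow_mem (mul_mem ha' ((hL b').2 h5)) _)) (pow_mem ha' _))

theorem Triv.sq (h : Triv α) (d : W) (hd : d.s = false) : α (α d) = d := by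
  have h1 : α z = z := by
    rw [show α z = α (a * b * (a * b)) from congrArg α (by decide), map_mul, map_mul]
    exact (by decide +kernel : ∀ u, Zq (u⁻¹ * a) → ∀ v, Zq (v⁻¹ * b) → u * v * (u * v) = z)
      _ (h a rfl) _ (h b rfl)
  have h2 : ∀ ζ, Zq ζ → α ζ = ζ := by
    rintro _ (rfl | rfl | rfl | rfl) <;> simp [h1, aut_c]
  have h3 := h2 _ (h d hd)
  have h4 : ∀ ζ, Zq ζ → ζ * ζ = 1 := by decide +kernel
  have h5 := h4 _ (h d hd)
  rw [map_mul, map_inv] at h3
  nth_rw 1 [← h3] at h5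
  rwa [mul_assoc, mul_inv_cancel_left, inv_mul_eq_one] at h5

theorem a_of_b (h : B (α b)) : A (α a) :=
  (by decide +kernel : ∀ v, B v → ∀ u, (A u ∨ B u) → u * v ≠ v * u → A u) _ h _
    (aut_ab α (by decide)) (aut_ne α)

theorem a_of_swap (h : A (α b)) {v : W} (hv : B v) : A (α v) := by
  obtain ⟨g, h1⟩ := (by decide +kernel : ∀ v, B v → ∃ g, Zq ((g * b * g⁻¹)⁻¹ * v)) v hv
  have h2 := (by decide +kernel : ∀ u, A u → ∀ ζ, Zq ζ → ∀ g, A (g * u * g⁻¹ * ζ)) _ h _
    (aut_zq α h1) (α g)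
  rwa [← map_inv, ← map_mul, ← map_mul, ← map_mul, mul_inv_cancel_left] at h2

/-- The involutions outside the base group. -/
abbrev T8 : Type := {w : W // w * w = 1 ∧ w.s = true}

theorem card_T8 : Fintype.card T8 = 8 := by decide +kernel

/-- The action on the involutions outside the base group. -/
def toPermT8 : MulAut W →* Equiv.Perm T8 where
  toFun α := Equiv.Perm.subtypePerm α.toEquiv fun w => by
    change α w * α w = 1 ∧ (α w).s = true ↔ _
    rw [← map_mul, α.map_eq_one_iff, aut_s]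
  map_one' := rfl
  map_mul' _ _ := rfl

theorem toPermT8_eq_one : toPermT8 α = 1 ↔ ∀ w, w * w = 1 → w.s = true → α w = w :=
  ⟨fun h w h1 h2 => congrArg Subtype.val (Equiv.congr_fun h ⟨w, h1, h2⟩),
    fun h => Equiv.ext fun w => Subtype.ext (h w.1 w.2.1 w.2.2)⟩

theorem a_of_toPermT8 (h : toPermT8 α = 1) : A (α a) := by
  refine (aut_ab α (by decide)).resolve_right fun hB => ?_
  have h1 := toPermT8_eq_one.1 h t rfl rfl
  have h2 := toPermT8_eq_one.1 h (a * t * a) (by decide) rfl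
  rw [map_mul, map_mul, h1] at h2
  exact (by decide +kernel : ∀ v, B v → v * t * v ≠ a * t * a) _ hB h2

theorem central_of_T8 : ∀ w : W, (∀ u : W, u * u = 1 → u.s = true → w * u * w⁻¹ = u) →
    w = 1 ∨ w = c := by decide +kernel

theorem normal_sixteen (V : Subgroup W) [hV : V.Normal] (h1 : ∀ u ∈ V, ∀ v ∈ V, u * v = v * u)
    (h2 : ∀ v ∈ V, v * v = 1) (h3 : Nat.card V = 16) :
    (a ∈ V ∧ ∀ v ∈ V, ¬ B v) ∨ (b ∈ V ∧ ∀ v ∈ V, ¬ A v) := by
  let P : W → Prop := fun w => Zq w ∨ A w ∨ Zq (w⁻¹ * (a * a'))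
  let Q : W → Prop := fun w => Zq w ∨ B w ∨ Zq (w⁻¹ * (b * b'))
  have h4 : ∀ v ∈ V, P v ∨ Q v := fun v hv =>
    (by decide +kernel : ∀ v : W, v * v = 1 → (∀ g, v * (g * v * g⁻¹) = g * v * g⁻¹ * v) →
      P v ∨ Q v) v (h2 v hv) fun g => h1 v hv _ (hV.conj_mem v hv g)
  have h5 : (∀ v ∈ V, P v) ∨ ∀ v ∈ V, Q v := by
    by_contra! H
    obtain ⟨⟨u, hu, e1⟩, v, hv, e2⟩ := H
    obtain ⟨g, hg⟩ := (by decide +kernel : ∀ u, Q u → ¬ P u → ∀ v, P v → ¬ Q v →
      ∃ g, u * (g * v * g⁻¹) ≠ g * v * g⁻¹ * u) u ((h4 u hu).resolve_left e1) e1 v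
      ((h4 v hv).resolve_right e2) e2
    exact hg (h1 u hu _ (hV.conj_mem v hv g))
  have key : ∀ (R : W → Prop) [DecidablePred R], Fintype.card {w // R w} = 16 →
      (∀ v ∈ V, R v) → ∀ v, R v → v ∈ V := fun R _ hc h => by
    have : (V : Set W) = {w | R w} := Set.eq_of_subset_of_ncard_le h (by
      rw [← Nat.card_coe_set_eq, ← Nat.card_coe_set_eq]
      exact (Nat.card_eq_fintype_card.trans hc).trans_le h3.ge)
    exact fun v hv => this.ge hv
  refine h5.imp (fun h => ⟨key P (by decide +kernel) h a (by decide), fun v hv => ?_⟩)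
    fun h => ⟨key Q (by decide +kernel) h b (by decide), fun v hv => ?_⟩
  · exact (by decide +kernel : ∀ v, P v → ¬ B v) v (h v hv)
  · exact (by decide +kernel : ∀ v, Q v → ¬ A v) v (h v hv)

end W

theorem exists_sylow_eq (H : Subgroup (Equiv.Perm (Fin 8))) (h : Nat.card H = 128) :
    ∃ T : Sylow 2 (Equiv.Perm (Fin 8)), (T : Subgroup (Equiv.Perm (Fin 8))) = H := by
  have h1 := H.card_mul_index
  rw [h, Nat.card_perm, Nat.card_fin] at h1
  exact ⟨(IsPGroup.of_card (n := 7) h).toSylow (by norm_num [Nat.factorial] at h1; omega), rfl⟩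

theorem nonempty_equiv_W (T : Sylow 2 (Equiv.Perm (Fin 8))) : Nonempty (T ≃* W) := by
  let R : W → Prop := fun w => w.s = false ∧ (w.x = 1 ∨ w.x = sr 0)
  let H : Subgroup W :=
    { carrier := {w | R w}
      mul_mem' := fun {u v} hu hv => (by decide +kernel : ∀ u, R u → ∀ v, R v → R (u * v)) u hu v hv
      one_mem' := ⟨rfl, Or.inl rfl⟩
      inv_mem' := fun {u} hu => (by decide +kernel : ∀ u, R u → R u⁻¹) u hu }
  have h1 : Nat.card H = 16 := by
    rw [show Nat.card H = Nat.card {w // R w} from rfl, Nat.card_eq_fintype_card]; decide +kernel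
  have h2 := H.card_mul_index
  rw [h1, W.card_W] at h2
  let e : W ⧸ H ≃ Fin 8 := Finite.equivFinOfCardEq (show H.index = 8 by omega)
  let f := e.permCongrHom.toMonoidHom.comp (MulAction.toPermHom W (W ⧸ H))
  have hf : Function.Injective f := e.permCongrHom.injective.comp (by
    rw [← MonoidHom.ker_eq_bot_iff, ← Subgroup.normalCore_eq_ker, eq_bot_iff]
    exact (by decide +kernel : ∀ w : W, (∀ g, R (g * w * g⁻¹)) → w = 1))
  obtain ⟨T', hT⟩ := exists_sylow_eq f.range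
    ((Nat.card_congr (MonoidHom.ofInjective hf).toEquiv).symm.trans W.card_W)
  exact ⟨((T.equiv T').trans (MulEquiv.subgroupCongr hT)).trans (MonoidHom.ofInjective hf).symm⟩

end Cfsg.Agent.Lib.Wr
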