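import Cfsg.Agent.Lib.Wr.D8Wr
import Cfsg.Agent.Lib.PGroup.SecRank
import Cfsg.Agent.Lib.PGroup.PIso
import Cfsg.Agent.Lib.Invol.SylowAux

/-!
Overgroups of `D₈ ≀ C₂` of sectional rank at most four.
-/

set_option autoImplicit false

namespace Cfsg.Agent.Lib.Wr

open Subgroup W PGroup
open scoped commutatorElement

variable {S : Type*} [Group S] {ι : W →* S} (hι : Function.Injective ι)

/-- The action of the normalizer. -/
noncomputable def act : normalizer (ι.range : Set S) →* MulAut W :=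
  (MulAut.congr (MonoidHom.ofInjective hι).symm).toMonoidHom.comp ι.range.normalizerMonoidHom

theorem ι_act (x : normalizer (ι.range : Set S)) (w : W) : ι (act hι x w) = x * ι w * x⁻¹ :=
  MonoidHom.apply_ofInjective_symm hι _

theorem act_of_eq {x : normalizer (ι.range : Set S)} {u : W} (h : ι u = x) (w : W) :
    act hι x w = u * w * u⁻¹ := hι (by rw [ι_act, map_mul, map_mul, map_inv, h]; rfl)

variable [Finite S] (hr : SecRank 2 4 (⊤ : Subgroup S))
include hr

theorem mem_D_of_sq {y : normalizer (ι.range : Set S)} (h : Triv (act hι y)) {ζ : W} (hζ : Zq ζ)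
    (hy : ι ζ = y.1 ^ 2) : y.1 ∈ D.map ι := by
  have hZ : Z2 ≤ D := (by decide +kernel : ∀ w, Zq w → w.s = false)
  have hn : y.1 ∈ normalizer ((D.map ι : Subgroup S) : Set S) :=
    Core.mem_normalizer_of_conj_mem (by
      rintro _ ⟨d, hd, rfl⟩
      exact ⟨_, (aut_s _ d).trans hd, ι_act hι y d⟩)
  have hsq : ∀ g ∈ D.map ι ⊔ zpowers y.1, g ^ 2 ∈ Z2.map ι := fun g hg => by
    obtain ⟨_, ⟨d, hd, rfl⟩, k, rfl⟩ := (mem_sup_zpowers_iff hn).1 hg
    have he : d * ζ ^ (k / 2) ∈ D := mul_mem hd (zpow_mem (hZ hζ) _)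
    have e : ι d * y.1 ^ k = ι (d * ζ ^ (k / 2)) * y.1 ^ (k % 2) := by
      rw [map_mul, map_zpow, hy, mul_assoc, ← zpow_natCast, ← zpow_mul, ← zpow_add]
      congr 2; omega
    rw [e]
    generalize d * ζ ^ (k / 2) = d at he
    rcases Int.emod_two_eq_zero_or_one k with h0 | h0 <;> rw [h0]
    · exact ⟨_, zq_sq d he, by simp [pow_two]⟩
    · refine ⟨d * d * ((act hι y d)⁻¹ * d)⁻¹ * ζ,
        mul_mem (mul_mem (zq_sq d he) (inv_mem (h d he))) hζ, ?_⟩
      simp only [map_mul, map_inv, ι_act, hy, pow_two, zpow_one, coe_inv]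
      group
  have h1 := hr.card_le le_top (K := D.map ι ⊔ zpowers y.1) (R := Z2.map ι)
    ⟨(map_mono hZ).trans le_sup_left, commutator_le.2 fun g hg h hh => by
      rw [show ⁅g, h⁆ = g ^ 2 * (g⁻¹ * h) ^ 2 * h⁻¹ ^ 2 by
        simp only [commutatorElement_def, pow_two]; group]
      exact mul_mem (mul_mem (hsq _ hg) (hsq _ (mul_mem (inv_mem hg) hh))) (hsq _ (inv_mem hh)),
      hsq⟩
  have h2 := eq_of_le_of_card_ge (le_sup_left : D.map ι ≤ D.map ι ⊔ zpowers y.1) (by
    rw [card_map_of_injective hι, card_Z2] at h1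
    rwa [card_map_of_injective hι, card_D])
  exact h2 ▸ mem_sup_right (mem_zpowers _)

variable (h2 : IsPGroup 2 S)
include h2

theorem mem_D_of_triv {y : normalizer (ι.range : Set S)} (h : Triv (act hι y)) : y.1 ∈ D.map ι := by
  obtain ⟨k, hk⟩ := h2 y.1
  induction k generalizing y with
  | zero => rw [pow_zero, pow_one] at hk; exact hk ▸ one_mem _
  | succ k ih =>
    have h1 : ∀ d : W, d.s = false → act hι (y ^ 2) d = d := fun d hd => by
      rw [pow_two, map_mul]; exact h.sq d hd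
    obtain ⟨e, he, h3⟩ := ih (y := y ^ 2) (fun d hd => by rw [h1 d hd, inv_mul_cancel]; exact Or.inl rfl)
      (by rw [coe_pow, ← pow_mul, ← pow_succ', hk])
    exact mem_D_of_sq hι hr h (zq_of_central e he fun d hd => by
      rw [← act_of_eq hι h3, h1 d hd]) h3

theorem mem_of_A {y : normalizer (ι.range : Set S)} (h : A (act hι y a)) : y.1 ∈ ι.range := by
  rcases h with h | h
  · exact map_le_range _ _ (mem_D_of_triv hι hr h2 (triv_of h))
  · let t' : normalizer (ι.range : Set S) := ⟨ι t, le_normalizer ⟨t, rfl⟩⟩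
    have := map_le_range _ _ (mem_D_of_triv hι hr h2 (y := t' * y) (triv_of (by
      rw [map_mul, MulAut.mul_apply, act_of_eq hι (u := t) rfl]
      exact (by decide +kernel : ∀ u, Zq (u⁻¹ * a') → Zq ((t * u * t⁻¹)⁻¹ * a)) _ h)))
    exact (mul_mem_cancel_left (⟨t, rfl⟩ : ι t ∈ ι.range)).1 this

include hι

theorem relIndex_eq_two (hP : ι.range ≠ ⊤) : ι.range.relIndex (normalizer (ι.range : Set S)) = 2 := by
  obtain ⟨x, -, h1, h3⟩ := Invol.exists_mem_normalizer_of_lt (h2.to_subgroup ⊤) hP.lt_top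
  refine index_eq_two_iff_exists_notMem_and.2 ⟨⟨x, h3⟩, h1, fun y => or_iff_not_imp_right.2
    fun hy => mem_subgroupOf.2 (mem_of_A hι hr h2 ?_)⟩
  rw [map_mul]
  exact a_of_swap ((aut_ab _ (by decide)).resolve_right fun h => hy (mem_of_A hι hr h2 (a_of_b h)))
    ((aut_ab _ (by decide)).resolve_left fun h => h1 (mem_of_A hι hr h2 h))

theorem mem_center_iff_act (y : normalizer (ι.range : Set S)) :
    (y.1 ∈ center S ↔ toPermT8 (act hι y) = 1) ∧ (y.1 ∈ center S ↔ y.1 = 1 ∨ y.1 = ι c) := by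
  have h1 : ∀ y : normalizer (ι.range : Set S), y.1 ∈ center S → toPermT8 (act hι y) = 1 :=
    fun y hy => toPermT8_eq_one.2 fun w _ _ => hι (by
      rw [ι_act, ← mem_center_iff.1 hy, coe_inv, mul_inv_cancel_right])
  have h3 : ∀ y : normalizer (ι.range : Set S), toPermT8 (act hι y) = 1 → y.1 = 1 ∨ y.1 = ι c :=
    fun y hy => by
      obtain ⟨w, hw⟩ := mem_of_A hι hr h2 (a_of_toPermT8 hy)
      exact (central_of_T8 w fun u e1 e2 => by
        rw [← act_of_eq hι hw, toPermT8_eq_one.1 hy u e1 e2]).imp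
        (fun e => by rw [← hw, e, map_one]) fun e => by rw [← hw, e]
  have h4 : ι c ∈ center S := by
    have : Nontrivial W := ⟨1, c, by decide⟩
    have : Nontrivial S := hι.nontrivial
    have := h2.center_nontrivial
    obtain ⟨u, hu⟩ := exists_ne (1 : center S)
    exact (h3 ⟨u, center_le_normalizer _ u.2⟩ (h1 _ u.2)).elim (fun e => absurd (Subtype.ext e) hu)
      fun e => e ▸ u.2
  have h5 : y.1 = 1 ∨ y.1 = ι c → y.1 ∈ center S := by
    rintro (e | e) <;> rw [e]
    exacts [one_mem _, h4]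
  exact ⟨⟨h1 y, fun h => h5 (h3 y h)⟩, fun h => h3 y (h1 y h), h5⟩

theorem mem_center_iff' {y : S} : y ∈ center S ↔ y = 1 ∨ y = ι c := by
  refine ⟨fun h => (mem_center_iff_act hι hr h2 ⟨y, center_le_normalizer _ h⟩).2.1 h, ?_⟩
  rintro (rfl | rfl)
  exacts [one_mem _, (mem_center_iff_act hι hr h2 ⟨_, le_normalizer ⟨c, rfl⟩⟩).2.2 (Or.inr rfl)]

theorem card_center : Nat.card (center S) = 2 := by
  rw [← Set.ncard_pair (a := 1) (b := ι c) fun h => absurd (hι ((map_one ι).trans h)) (by decide)]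
  exact congrArg Set.ncard (Set.ext fun _ => mem_center_iff' hι hr h2)

theorem center_eq : center S = (center ι.range).map ι.range.subtype := by
  refine le_antisymm (fun y hy => ?_) ?_
  · have : y ∈ ι.range := by
      rcases (mem_center_iff' hι hr h2).1 hy with rfl | rfl
      exacts [one_mem _, ⟨c, rfl⟩]
    exact ⟨⟨y, this⟩, mem_center_iff.2 fun g => Subtype.ext (mem_center_iff.1 hy g), rfl⟩
  · rintro _ ⟨⟨_, w, rfl⟩, hw, rfl⟩
    exact (mem_center_iff' hι hr h2).2 (((central_iff w).1 fun g => hι (by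
      simpa using congrArg Subtype.val (mem_center_iff.1 hw ⟨_, g, rfl⟩))).imp
      (fun e => by simp [e]) fun e => by simp [e])

theorem quotient_equiv (hP : ι.range ≠ ⊤) : ∃ T : Sylow 2 (Equiv.Perm (Fin 8)),
    Nonempty (normalizer (ι.range : Set S) ⧸ (center S).subgroupOf (normalizer (ι.range : Set S)) ≃*
      (T : Subgroup (Equiv.Perm (Fin 8)))) := by
  let e := Fintype.equivFinOfCardEq card_T8
  let f := e.permCongrHom.toMonoidHom.comp (toPermT8.comp (act hι))
  have hf : (center S).subgroupOf (normalizer (ι.range : Set S)) = f.ker := ext fun y =>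
    (mem_center_iff_act hι hr h2 y).1.trans e.permCongrHom.map_eq_one_iff.symm
  have h1 := Core.card_mul_relIndex (le_normalizer (H := ι.range))
  rw [relIndex_eq_two hι hr h2 hP, ← Nat.card_congr (MonoidHom.ofInjective hι).toEquiv, card_W] at h1
  have h3 := Core.card_mul_relIndex (center_le_normalizer (ι.range : Set S))
  rw [card_center hι hr h2, relIndex, hf, index_ker, ← h1] at h3
  obtain ⟨T, hT⟩ := exists_sylow_eq f.range (by omega)
  exact ⟨T, ⟨((QuotientGroup.quotientMulEquivOfEq hf).trans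
    (QuotientGroup.quotientKerEquivRange f)).trans (MulEquiv.subgroupCongr hT.symm)⟩⟩

theorem normalizer_eq {V : Subgroup S} (h1 : V ≤ ι.range)
    (h3 : ∀ g ∈ ι.range, ∀ v ∈ V, g * v * g⁻¹ ∈ V) (h4 : IsElementaryAbelian 2 V)
    (h5 : Nat.card V = 16) : normalizer (V : Set S) = ι.range := by
  have hle : ι.range ≤ normalizer (V : Set S) := fun g hg =>
    Core.mem_normalizer_of_conj_mem (h3 g hg)
  by_contra hne
  obtain ⟨y, e1, e2, e3⟩ := Invol.exists_mem_normalizer_of_lt (h2.to_subgroup _)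
    (lt_of_le_of_ne hle (Ne.symm hne))
  have : (V.comap ι).Normal := ⟨fun v hv g => by
    simpa using h3 _ ⟨g, rfl⟩ _ hv⟩
  have hV : ∀ v ∈ V.comap ι, act hι ⟨y, e3⟩ v ∈ V.comap ι := fun v hv => by
    rw [mem_comap, ι_act]; exact (mem_normalizer_iff.1 e1 _).1 hv
  have := h4.1
  rcases normal_sixteen (V.comap ι) (fun u hu v hv => hι (by
      rw [map_mul, map_mul]; exact setLike_mul_comm (s := V) hu hv))
    (fun v hv => hι (by rw [map_mul, ← pow_two, h4.2 _ hv, map_one]))
    (by rw [← card_map_of_injective hι, map_comap_eq_self h1, h5]) with ⟨h6, h7⟩ | ⟨h6, h7⟩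
  · exact e2 (mem_of_A hι hr h2 ((aut_ab _ (by decide)).resolve_right (h7 _ (hV _ h6))))
  · exact e2 (mem_of_A hι hr h2 (a_of_b ((aut_ab _ (by decide)).resolve_left (h7 _ (hV _ h6)))))

end Cfsg.Agent.Lib.Wr
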